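import Cfsg.Agent.Lib.AH.Def

/-!
# Basic facts on rational groups and on the hypothesis `AH`
-/

set_option autoImplicit false

namespace Cfsg.Lib.AH

open Subgroup

variable {G : Type*} [Group G] [Finite G]

theorem card_carrier_mul_cz (x : G) :
    Nat.card (ConjClasses.mk x).carrier * cz x = Nat.card G := by
  have h1 := MulAction.index_stabilizer (ConjAct G) x
  have h2 := Subgroup.index_mul_card (MulAction.stabilizer (ConjAct G) x)
  rw [h1, ConjAct.orbit_eq_carrier_conjClasses,
    ← Subgroup.nat_card_centralizer_nat_card_stabilizer x] at h2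
  rw [Nat.card_coe_set_eq]
  exact h2.trans (Nat.card_congr ConjAct.toConjAct.toEquiv.symm)

theorem cz_eq_of_isConj {x y : G} (h : IsConj x y) : cz x = cz y := by
  have h1 := card_carrier_mul_cz x
  have h2 := card_carrier_mul_cz y
  rw [ConjClasses.mk_eq_mk_iff_isConj.mpr h, ← h2] at h1
  have h0 : 0 < Nat.card (ConjClasses.mk y).carrier := by
    haveI : Nonempty (ConjClasses.mk y).carrier := ⟨⟨y, ConjClasses.mem_carrier_mk⟩⟩
    exact Nat.card_pos
  exact Nat.eq_of_mul_eq_mul_left h0 h1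

/-- `card carrier * cz x = card G` (orbit-stabilizer; `ConjClasses.card_carrier`), so equal `cz`
gives equal class sizes, hence equal classes. -/
theorem ah_of_injective (h : Function.Injective fun C : ConjClasses G => Nat.card C.carrier) :
    AH G := by
  intro x y hxy
  have h1 := card_carrier_mul_cz x
  have h2 := card_carrier_mul_cz y
  rw [hxy, ← h2] at h1
  have h0 : 0 < cz y := Nat.card_pos
  exact ConjClasses.mk_eq_mk_iff_isConj.mp (h (Nat.eq_of_mul_eq_mul_right h0 h1))

/-- `x` and `x ^ m` generate the same cyclic group, so they have the same centralizer. -/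
theorem AH.rat (h : AH G) : RatIn (⊤ : Subgroup G) := by
  intro x _ m hm
  have hz : zpowers (x ^ m) = zpowers x := by
    apply le_antisymm (zpowers_le.mpr (pow_mem (mem_zpowers x) m))
    rw [zpowers_le]
    obtain ⟨k, hk⟩ := exists_pow_eq_self_of_coprime hm
    exact ⟨k, by simpa using hk⟩
  have hc : cz x = cz (x ^ m) := by
    unfold cz
    rw [← centralizer_closure, ← centralizer_closure {x ^ m}, ← zpowers_eq_closure,
      ← zpowers_eq_closure, hz]
  obtain ⟨g, hg⟩ := isConj_iff.mp (h _ _ hc)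
  exact ⟨g, mem_top g, hg⟩

/-- Group the elements of `G` by the value of `cz`: each fibre is one class, of size
`card G / c`. -/
theorem AH.sum (h : AH G) :
    ∃ T : Finset ℕ, (∀ c ∈ T, ∃ x : G, cz x = c) ∧ ∑ c ∈ T, (1 / (c : ℝ)) = 1 := by
  classical
  haveI := Fintype.ofFinite G
  refine ⟨Finset.univ.image (cz (G := G)), fun c hc => ?_, ?_⟩
  · obtain ⟨x, -, hx⟩ := Finset.mem_image.mp hc
    exact ⟨x, hx⟩
  have hG : (0 : ℝ) < Nat.card G := by exact_mod_cast Nat.card_pos
  have h1 : (Finset.univ : Finset G).card =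
      ∑ c ∈ Finset.univ.image (cz (G := G)), (Finset.univ.filter fun x : G => cz x = c).card :=
    Finset.card_eq_sum_card_image _ _
  have h2 : ∀ c ∈ Finset.univ.image (cz (G := G)),
      ((Finset.univ.filter fun x : G => cz x = c).card : ℝ) = Nat.card G * (1 / (c : ℝ)) := by
    intro c hc
    obtain ⟨x, -, rfl⟩ := Finset.mem_image.mp hc
    have h3 : (Finset.univ.filter fun y : G => cz y = cz x).card =
        Nat.card (ConjClasses.mk x).carrier := by
      rw [Nat.card_coe_set_eq, ← Set.ncard_coe_finset]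
      congr 1
      ext y
      simp only [Finset.coe_filter, Finset.mem_univ, true_and, Set.mem_ofPred_eq,
        ConjClasses.mem_carrier_iff_mk_eq, ConjClasses.mk_eq_mk_iff_isConj]
      exact ⟨h y x, cz_eq_of_isConj⟩
    have h0 : (0 : ℝ) < cz x := by
      have : 0 < cz x := Nat.card_pos
      exact_mod_cast this
    rw [h3, ← card_carrier_mul_cz x]
    push_cast
    field_simp
  have h4 : (Nat.card G : ℝ) = ∑ c ∈ Finset.univ.image (cz (G := G)),
      (Nat.card G : ℝ) * (1 / (c : ℝ)) := by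
    rw [← Finset.sum_congr rfl h2, Nat.card_eq_fintype_card, ← Finset.card_univ, h1]
    push_cast
    rfl
  rw [← Finset.mul_sum] at h4
  exact (mul_left_cancel₀ hG.ne' (by rw [mul_one]; exact h4)).symm

theorem cz_dvd (x : G) : cz x ∣ Nat.card G := by
  exact card_subgroup_dvd_card _

theorem orderOf_dvd_cz (x : G) : orderOf x ∣ cz x := by
  exact orderOf_dvd_natCard _ (mem_centralizer_singleton_iff.mpr rfl)

theorem cz_one : cz (1 : G) = Nat.card G := by
  unfold cz
  have : centralizer ({1} : Set G) = ⊤ := by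
    rw [eq_top_iff]
    intro x _
    rw [mem_centralizer_singleton_iff, mul_one, one_mul]
  rw [this, card_top]

theorem two_le_cz [Nontrivial G] (x : G) : 2 ≤ cz x := by
  by_cases hx : x = 1
  · rw [hx, cz_one]
    exact Finite.one_lt_card
  · have h1 : 0 < cz x := Nat.card_pos
    have h2 := Nat.le_of_dvd h1 (orderOf_dvd_cz x)
    have h3 : orderOf x ≠ 1 := fun h => hx (orderOf_eq_one_iff.mp h)
    have h4 := orderOf_pos x
    omega

/-- Take `m = orderOf x - 1`. -/
theorem RatIn.inv {H : Subgroup G} (h : RatIn H) {x : G} (hx : x ∈ H) :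
    ∃ g ∈ H, g * x * g⁻¹ = x⁻¹ := by
  have h0 := orderOf_pos x
  have hc : (orderOf x - 1).Coprime (orderOf x) := by
    obtain ⟨n, hn⟩ : ∃ n, orderOf x = n + 1 := ⟨orderOf x - 1, by omega⟩
    rw [hn, Nat.add_sub_cancel]
    simp
  obtain ⟨g, hg, e⟩ := h x hx _ hc
  refine ⟨g, hg, e.trans (eq_inv_of_mul_eq_one_left ?_)⟩
  rw [← pow_succ, Nat.sub_add_cancel h0, pow_orderOf_eq_one]

/-- `ZMod.unitsMap_surjective`. -/
theorem exists_lift {n N m : ℕ} (hN : N ≠ 0) (h : n ∣ N) (hm : m.Coprime n) :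
    ∃ m' : ℕ, m'.Coprime N ∧ m' ≡ m [MOD n] := by
  haveI : NeZero N := ⟨hN⟩
  obtain ⟨u, hu⟩ := ZMod.unitsMap_surjective h (ZMod.unitOfCoprime m hm)
  refine ⟨(u : ZMod N).val, ZMod.val_coe_unit_coprime u, ?_⟩
  rw [← ZMod.natCast_eq_natCast_iff]
  have := congrArg Units.val hu
  rw [ZMod.unitsMap_val, ZMod.coe_unitOfCoprime] at this
  rw [← this, ZMod.natCast_val]

/-- Lift `x` to `y`, and `m` to `m' ≡ m [MOD orderOf x]` prime to `card G` (`exists_lift`). -/
theorem RatIn.of_surjective {G' : Type*} [Group G'] (h : RatIn (⊤ : Subgroup G)) (f : G →* G')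
    (hf : Function.Surjective f) : RatIn (⊤ : Subgroup G') := by
  intro x _ m hm
  obtain ⟨y, rfl⟩ := hf x
  have hd : orderOf (f y) ∣ orderOf y := orderOf_map_dvd f y
  obtain ⟨m', h1, h2⟩ := exists_lift (orderOf_pos y).ne' hd hm
  obtain ⟨g, -, hg⟩ := h y (mem_top y) m' h1
  refine ⟨f g, mem_top _, ?_⟩
  rw [← map_inv, ← map_mul, ← map_mul, hg, map_pow]
  exact pow_eq_pow_iff_modEq.mpr h2

/-- Uniqueness of the decomposition into commuting parts of coprime orders: raise to a power
`≡ 1 mod s`, `≡ 0 mod t` (`Nat.chineseRemainder`) and vice versa. -/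
theorem conj_split {a b a' b' g : G} {s t : ℕ} (hst : s.Coprime t) (ha : a ^ s = 1)
    (ha' : a' ^ s = 1) (hb : b ^ t = 1) (hb' : b' ^ t = 1) (hab : Commute a b)
    (hab' : Commute a' b') (h : g * (a * b) * g⁻¹ = a' * b') :
    g * a * g⁻¹ = a' ∧ g * b * g⁻¹ = b' := by
  have key : ∀ {c d : G} {s t u : ℕ}, c ^ s = 1 → d ^ t = 1 → Commute c d → u ≡ 1 [MOD s] →
      u ≡ 0 [MOD t] → (c * d) ^ u = c := by
    intro c d s t u hc hd hcd h1 h2
    rw [hcd.mul_pow, pow_eq_pow_of_modEq h1 hc, pow_eq_pow_of_modEq h2 hd, pow_one, pow_zero,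
      mul_one]
  obtain ⟨u, hu1, hu2⟩ := Nat.chineseRemainder hst 1 0
  have e1 : g * a * g⁻¹ = a' := by
    rw [← key ha' hb' hab' hu1 hu2, ← h, conj_pow, key ha hb hab hu1 hu2]
  refine ⟨e1, mul_left_cancel (a := a') ?_⟩
  rw [← h, ← e1]
  group

/-- The centralizer of a product of commuting elements of coprime orders (`conj_split`). -/
theorem centralizer_mul {a b : G} (hab : Commute a b) (hc : (orderOf a).Coprime (orderOf b)) :
    centralizer ({a * b} : Set G) = centralizer {a} ⊓ centralizer {b} := by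
  ext g
  simp only [mem_inf, mem_centralizer_singleton_iff]
  constructor
  · intro hg
    have h1 : g * (a * b) * g⁻¹ = a * b := by rw [hg, mul_inv_cancel_right]
    obtain ⟨h2, h3⟩ := conj_split hc (pow_orderOf_eq_one a) (pow_orderOf_eq_one a)
      (pow_orderOf_eq_one b) (pow_orderOf_eq_one b) hab hab h1
    exact ⟨mul_inv_eq_iff_eq_mul.mp h2, mul_inv_eq_iff_eq_mul.mp h3⟩
  · rintro ⟨h1, h2⟩
    rw [← mul_assoc, h1, mul_assoc, h2, mul_assoc]

/-- Apply rationality to `a * b` with `m' ≡ m mod orderOf a`, `m' ≡ 1 mod orderOf b`, then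
`conj_split`. -/
theorem RatIn.two {H : Subgroup G} (h : RatIn H) {a b : G} (ha : a ∈ H) (hb : b ∈ H)
    (hab : Commute a b) (hc : (orderOf a).Coprime (orderOf b)) {m : ℕ}
    (hm : m.Coprime (orderOf a)) : ∃ g ∈ H, g * a * g⁻¹ = a ^ m ∧ g * b * g⁻¹ = b := by
  obtain ⟨u, hu1, hu2⟩ := Nat.chineseRemainder hc m 1
  have hu : u.Coprime (orderOf (a * b)) := by
    rw [hab.orderOf_mul_eq_mul_orderOf_of_coprime hc]
    refine Nat.Coprime.mul_right ?_ ?_
    · unfold Nat.Coprime
      rw [hu1.gcd_eq]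
      exact hm
    · unfold Nat.Coprime
      rw [hu2.gcd_eq]
      exact Nat.gcd_one_left _
  obtain ⟨g, hg, e⟩ := h _ (H.mul_mem ha hb) u hu
  rw [hab.mul_pow, pow_eq_pow_iff_modEq.mpr hu1, pow_eq_pow_iff_modEq.mpr hu2, pow_one] at e
  refine ⟨g, hg, conj_split hc (pow_orderOf_eq_one a) ?_ (pow_orderOf_eq_one b)
    (pow_orderOf_eq_one b) hab (hab.pow_left m) e⟩
  rw [← pow_mul, mul_comm, pow_mul, pow_orderOf_eq_one, one_pow]

/-- A complement to a normal subgroup of a rational group is rational: write `g = n h`; then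
`h x h⁻¹ * (x ^ m)⁻¹ ∈ N ⊓ H`. -/
theorem RatIn.compl (h : RatIn (⊤ : Subgroup G)) {N H : Subgroup G} [N.Normal] (hi : N ⊓ H = ⊥)
    (hs : N ⊔ H = ⊤) : RatIn H := by
  intro x hx m hm
  obtain ⟨g, -, e⟩ := h x (mem_top x) m hm
  have hg : g ∈ N ⊔ H := hs ▸ mem_top g
  obtain ⟨n, hn, k, hk, rfl⟩ := mem_sup_of_normal_left.mp hg
  refine ⟨k, hk, ?_⟩
  have h1 : k * x * k⁻¹ * (x ^ m)⁻¹ ∈ N ⊓ H := by
    refine ⟨?_, H.mul_mem (H.mul_mem (H.mul_mem hk hx) (H.inv_mem hk)) (H.inv_mem (H.pow_mem hx m))⟩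
    have h2 : k * x * k⁻¹ * (x ^ m)⁻¹ = n⁻¹ * (x ^ m * n * (x ^ m)⁻¹) := by
      have : k * x * k⁻¹ = n⁻¹ * (n * k * x * (n * k)⁻¹) * n := by group
      rw [this, e]
      group
    rw [h2]
    exact N.mul_mem (N.inv_mem hn) (Subgroup.Normal.conj_mem inferInstance n hn _)
  rw [hi, mem_bot] at h1
  exact mul_inv_eq_one.mp h1

/-- A maximal subgroup `M ≥ commutator G` is normal, `G ⧸ M` is abelian and every element equals
its inverse (`RatIn.inv`), and `G ⧸ M` has no proper subgroups, so it has order `2`. -/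
theorem RatIn.exists_index_two [Nontrivial G] (h : RatIn (⊤ : Subgroup G))
    (hs : Group.IsSolvable G) : ∃ X : Subgroup G, X.index = 2 := by
  have hne : commutator G ≠ ⊤ := by
    have := Group.IsSolvable.commutator_lt_top_of_nontrivial G
    exact this.ne
  have hf : Function.Surjective (Abelianization.of : G →* Abelianization G) :=
    fun x => QuotientGroup.induction_on x fun y => ⟨y, rfl⟩
  haveI : Finite (Abelianization G) := Finite.of_surjective _ hf
  have hA := h.of_surjective _ hf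
  haveI : Fact (Nat.Prime 2) := ⟨Nat.prime_two⟩
  have hP : IsPGroup 2 (Abelianization G) := by
    intro x
    obtain ⟨g, -, hg⟩ := hA.inv (mem_top x)
    refine ⟨1, ?_⟩
    rw [mul_comm g x, mul_inv_cancel_right] at hg
    rw [pow_one, sq]
    nth_rewrite 2 [hg]
    exact mul_inv_cancel x
  obtain ⟨k, hk⟩ := hP.exists_card_eq
  have hk0 : k ≠ 0 := by
    rintro rfl
    rw [pow_zero] at hk
    apply hne
    rw [← Abelianization.ker_of, eq_top_iff]
    intro x _
    haveI := (Nat.card_eq_one_iff_unique.mp hk).1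
    exact Subsingleton.elim _ _
  obtain ⟨j, rfl⟩ := Nat.exists_eq_succ_of_ne_zero hk0
  obtain ⟨K, hK⟩ := Sylow.exists_subgroup_card_pow_prime (G := Abelianization G) 2 (n := j)
    (by rw [hk]; exact pow_dvd_pow 2 (Nat.le_succ j))
  refine ⟨K.comap Abelianization.of, ?_⟩
  rw [index_comap_of_surjective _ hf]
  have h2 := K.card_mul_index
  rw [hK, hk, pow_succ] at h2
  exact Nat.eq_of_mul_eq_mul_left (by positivity) h2

/-- `N = normalizer (zpowers a)` acts on `G` by conjugation; the orbit of `a` is the set of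
generators of `zpowers a` (of size `φ (orderOf a)`), the stabilizer is the centralizer. -/
theorem RatIn.totient_mul_dvd (h : RatIn (⊤ : Subgroup G)) (a : G) :
    (orderOf a).totient * cz a ∣ Nat.card G := by
  classical
  let N : Subgroup G := normalizer (zpowers a : Set G)
  letI : MulAction N G := MulAction.compHom G ((MulAut.conj (G := G)).comp N.subtype)
  have hs : ∀ (g : N) (x : G), g • x = g * x * (g : G)⁻¹ := fun _ _ => rfl
  have hCN : centralizer ({a} : Set G) ≤ N := by
    rw [← centralizer_closure, ← zpowers_eq_closure]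
    exact centralizer_le_normalizer _
  have h1 : MulAction.stabilizer N a = (centralizer ({a} : Set G)).subgroupOf N := by
    ext g
    rw [MulAction.mem_stabilizer_iff, hs, mem_subgroupOf, mem_centralizer_singleton_iff,
      mul_inv_eq_iff_eq_mul]
  have h2 : MulAction.orbit N a =
      ↑(((Finset.range (orderOf a)).filter (orderOf a).Coprime).image (a ^ ·)) := by
    ext y
    simp only [MulAction.mem_orbit_iff, hs, Finset.coe_image, Finset.coe_filter, Set.mem_image,
      Set.mem_ofPred_eq, Finset.mem_range]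
    constructor
    · rintro ⟨g, rfl⟩
      have h3 : (g : G) * a * (g : G)⁻¹ ∈ zpowers a :=
        (mem_normalizer_iff.mp g.2 a).mp (mem_zpowers a)
      obtain ⟨m, hm, e⟩ := Finset.mem_image.mp (mem_zpowers_iff_mem_range_orderOf.mp h3)
      refine ⟨m, ⟨Finset.mem_range.mp hm, ?_⟩, e⟩
      have h4 : orderOf (a ^ m) = orderOf a := by
        rw [e]
        exact (MulAut.conj (g : G)).orderOf_eq a
      rw [orderOf_pow, Nat.div_eq_self] at h4
      exact h4.resolve_left (orderOf_pos a).ne'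
    · rintro ⟨m, ⟨-, hm⟩, rfl⟩
      obtain ⟨g, -, e⟩ := h a (mem_top a) m hm.symm
      refine ⟨⟨g, mem_normalizer_fintype ?_⟩, e⟩
      rintro _ ⟨k, rfl⟩
      have : g * a ^ k * g⁻¹ = (a ^ m) ^ k := by rw [← e, conj_zpow]
      change g * a ^ k * g⁻¹ ∈ zpowers a
      rw [this]
      exact zpow_mem (pow_mem (mem_zpowers a) m) k
  have h5 : (MulAction.orbit N a).ncard = (orderOf a).totient := by
    rw [h2, Set.ncard_coe_finset, Finset.card_image_of_injOn, Nat.totient_eq_card_coprime]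
    intro i hi j hj hij
    simp only [Finset.coe_filter, Finset.mem_range, Set.mem_ofPred_eq] at hi hj
    exact pow_injOn_Iio_orderOf hi.1 hj.1 hij
  have h6 := Subgroup.index_mul_card (MulAction.stabilizer N a)
  rw [MulAction.index_stabilizer, h5, h1,
    Nat.card_congr (subgroupOfEquivOfLe hCN).toEquiv] at h6
  unfold cz
  rw [h6]
  exact card_subgroup_dvd_card N

/-- The `p`-part and the `p'`-part of an element. -/
theorem exists_parts {p : ℕ} (hp : p.Prime) (x : G) : ∃ k l : G, x = k * l ∧ Commute k l ∧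
    ¬ p ∣ orderOf k ∧ (∃ j : ℕ, l ^ p ^ j = 1) ∧ k ∈ zpowers x ∧ l ∈ zpowers x := by
  obtain ⟨j, m, hm, hn⟩ := Nat.exists_eq_pow_mul_and_not_dvd (orderOf_pos x).ne' p hp.ne_one
  have hc : (p ^ j).Coprime m := Nat.Coprime.pow_left j ((Nat.Prime.coprime_iff_not_dvd hp).mpr hm)
  obtain ⟨u, hu1, hu2⟩ := Nat.chineseRemainder hc 0 1
  have hx : Commute (x ^ u)⁻¹ x := ((Commute.refl x).pow_left u).inv_left
  refine ⟨x ^ u, (x ^ u)⁻¹ * x, by group, ?_, fun h => hm (h.trans ?_), ⟨j, ?_⟩,
    pow_mem (mem_zpowers x) u,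
    mul_mem (inv_mem (pow_mem (mem_zpowers x) u)) (mem_zpowers x)⟩
  · exact (Commute.refl _).inv_right.mul_right ((Commute.refl x).pow_left u)
  · rw [orderOf_dvd_iff_pow_eq_one, ← pow_mul, ← orderOf_dvd_iff_pow_eq_one, hn]
    exact Nat.mul_dvd_mul_right ((Nat.modEq_zero_iff_dvd).mp hu1) m
  · rw [hx.mul_pow, inv_pow, ← pow_mul, inv_mul_eq_one, pow_eq_pow_iff_modEq, hn, mul_comm u]
    have := Nat.ModEq.mul_left' (p ^ j) hu2
    rwa [mul_one] at this

end Cfsg.Lib.AH
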