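import Cfsg.Agent.Lib.AH.Grp

/-!
# The bottom section of `C_P(k)`
-/

set_option autoImplicit false

namespace Cfsg.Lib.AH

open Subgroup

variable {G : Type*} [Group G] [Finite G]

/-- Choose `N₁ ≤ P` normal in `G`, minimal with `Z = N₁ ⊓ C(k) ≠ 1`, and `N₂ < N₁` maximal among
the normal subgroups of `G` properly inside `N₁`; so `N₂ ⊓ C(k) = 1`.  In `G ⧸ N₂`,
`V = N₁.map mk'` is minimal normal, an elementary abelian `p`-group centralized by the image of `P`
(`IsMinNormal.le_centralizer_of_isNilpotent`), so `Md p ⊤ V` (`RatIn.of_surjective`).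
`V ⊓ C(k̄) = Z.map mk'` (`Coprime.map_inf_centralizer_map'` with `A = zpowers k`) and `mk'` is
injective on `N₁ ⊓ C(k)`; `⁅Z, P ⊓ C(k)⁆ ≤ N₂ ⊓ C(k) = 1`.  `Md.plane`: `card Z = p ^ (2 j)`,
`j ≥ 1`; pull `Pl` back along `mk'` (`τ d = τ' (mk' d)`). -/
theorem exists_bt (hG : RatIn (⊤ : Subgroup G)) {p : ℕ} (hp : p.Prime) (h5 : 5 ≤ p)
    {P : Subgroup G} [P.Normal] (hP : IsPGroup p P) (hi : ¬ p ∣ P.index) {k : G}
    (hk : ¬ p ∣ orderOf k) (hne : P ⊓ centralizer {k} ≠ ⊥) :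
    ∃ Z : Subgroup G, Bt p P k Z ∧ (p ^ 4 ∣ Nat.card Z ∨
      (Nat.card Z = p ^ 2 ∧ ∃ τ : G → ℕ, Pl (centralizer {k}) Z (Nat.card G) τ)) := by
  haveI : Fact p.Prime := ⟨hp⟩
  obtain ⟨N₁, hN₁P, ⟨hN₁n, hN₁⟩, hmin⟩ := Core.exists_minimal_le
    (P := fun K : Subgroup G => K.Normal ∧ K ⊓ centralizer {k} ≠ ⊥) (H := P) ⟨inferInstance, hne⟩
  have hN₁0 : (⊥ : Subgroup G) < N₁ :=
    bot_lt_iff_ne_bot.mpr fun h => hN₁ (by rw [h, bot_inf_eq])
  obtain ⟨N₂, hch, -⟩ := Core.exists_isChiefFactor_ge hN₁n inferInstance hN₁0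
  haveI := hch.2.2.1
  have h20 : N₂ ⊓ centralizer {k} = ⊥ := by
    by_contra h
    exact hch.1.ne (hmin N₂ ⟨hch.2.2.1, h⟩ hch.1.le)
  have hV := Core.isMinNormal_map_mk'_of_isChiefFactor hch
  have hf := QuotientGroup.mk'_surjective N₂
  set f := QuotientGroup.mk' N₂ with hfd
  have hinj : ∀ x ∈ centralizer ({k} : Set G), ∀ y ∈ centralizer ({k} : Set G),
      f x = f y → x = y := by
    intro x hx y hy h
    have h1 : x⁻¹ * y ∈ N₂ ⊓ centralizer {k} :=
      mem_inf.mpr ⟨QuotientGroup.eq.mp h, mul_mem (inv_mem hx) hy⟩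
    rw [h20, mem_bot] at h1
    exact inv_mul_eq_one.mp h1
  have hN₁p : IsPGroup p N₁ := hP.to_le hN₁P
  haveI := hV.normal
  haveI : (P.map f).Normal := Normal.map inferInstance f hf
  have hVP : N₁.map f ≤ centralizer (P.map f : Set (G ⧸ N₂)) :=
    hV.le_centralizer_of_isNilpotent _ (hP.map f).isNilpotent
  have hel := hV.isElementaryAbelian_of_isPGroup (hN₁p.map f)
  have hM : Md p ⊤ (N₁.map f) :=
    { hp := hp
      five := h5
      ne := hV.ne_bot
      le := le_top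
      el := hel
      norm := le_normalizer_of_normal
      min := hV.min_invariant
      cop := by
        rw [relIndex_top_right]
        exact fun h => hi ((h.trans (index_dvd_of_le (le_centralizer_iff.mp hVP))).trans
          (index_map_dvd P hf))
      rat := hG.of_surjective f hf }
  have hcop : (Nat.card (zpowers k)).Coprime (Nat.card N₁) := by
    obtain ⟨n, hn⟩ := hN₁p.exists_card_eq
    rw [hn, Nat.card_zpowers]
    exact Nat.Coprime.pow_right n ((Nat.Prime.coprime_iff_not_dvd hp).mpr hk).symm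
  have hZ := Coprime.map_inf_centralizer_map' f (A := zpowers k) (K := N₁)
    le_normalizer_of_normal hcop (Or.inr (by haveI := hN₁p.isNilpotent; infer_instance))
  rw [MonoidHom.map_zpowers, zpowers_eq_closure, centralizer_closure, zpowers_eq_closure,
    centralizer_closure] at hZ
  have hcard : Nat.card ↥(N₁.map f ⊓ centralizer {f k}) = Nat.card ↥(N₁ ⊓ centralizer {k}) := by
    rw [hZ]
    exact Nat.card_image_of_injOn (f := f) (s := (N₁ ⊓ centralizer {k} : Subgroup G))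
      fun x hx y hy h => hinj x hx.2 y hy.2 h
  have hmem : ∀ w ∈ N₁ ⊓ centralizer ({k} : Set G), f w ∈ N₁.map f ⊓ centralizer {f k} :=
    fun w hw => hZ ▸ mem_map_of_mem f hw
  have hmemD : ∀ d ∈ centralizer ({k} : Set G), f d ∈ ⊤ ⊓ centralizer {f k} := by
    intro d hd
    refine ⟨mem_top _, ?_⟩
    have := congrArg f (mem_centralizer_singleton_iff.mp hd)
    rw [map_mul, map_mul] at this
    exact mem_centralizer_singleton_iff.mpr this
  obtain ⟨⟨j, hj⟩, hpl⟩ := hM.plane (mem_top (f k)) fun h => hk (h.trans (orderOf_map_dvd f k))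
  rw [hcard] at hj hpl
  refine ⟨N₁ ⊓ centralizer {k}, ⟨inf_le_inf_right _ hN₁P, ?_, ?_, ?_⟩, ?_⟩
  · intro x hx z hz
    refine hinj _ (mul_mem hz.2 hx.2) _ (mul_mem hx.2 hz.2) ?_
    rw [map_mul, map_mul]
    exact (hVP (mem_map_of_mem f hz.1) _ (mem_map_of_mem f hx.1)).symm
  · intro d hd
    exact mem_normalizer_fintype fun z hz =>
      mem_inf.mpr ⟨hN₁n.conj_mem z hz.1 d, mul_mem (mul_mem hd (mem_inf.mp hz).2) (inv_mem hd)⟩
  · intro z hz
    refine hinj _ (pow_mem hz.2 p) _ (one_mem _) ?_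
    rw [map_pow, map_one]
    exact hel.2 _ (mem_map_of_mem f hz.1)
  · rcases j with _ | _ | j
    · exact absurd (card_eq_one.mp (by simpa using hj)) hN₁
    · refine Or.inr ⟨hj, ?_⟩
      obtain ⟨τ, h1, h2⟩ := hpl hj
      refine ⟨fun d => τ (f d), fun d hd w hw => ?_, fun d hd m hm w hw => ?_⟩
      · refine hinj _ (mul_mem (mul_mem (mul_mem hd hw.2) (inv_mem hd))
          (mul_mem (mul_mem (inv_mem hd) hw.2) hd)) _ (pow_mem hw.2 _) ?_
        simp only [map_mul, map_inv, map_pow]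
        exact h1 _ (hmemD d hd) _ (hmem w hw)
      · refine hinj _ (pow_mem hw.2 _) _ (pow_mem hw.2 _) ?_
        simp only [map_pow]
        exact h2 _ (hmemD d hd) m (hm.coprime_dvd_right (card_quotient_dvd_card N₂)) _ (hmem w hw)
    · rw [hj]
      exact Or.inl (pow_dvd_pow p (by omega))

end Cfsg.Lib.AH
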