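import Cfsg.Agent.Lib.Core.MinNormal
import Cfsg.Agent.Lib.Coprime.Generation

/-!
# Solvable groups with pairwise different class sizes: definitions

Route to S4162.  `AH G` : elements with centralizers of the same order are conjugate.  Then `G` is
rational (`RatIn ⊤`).  For `p ≥ 5` a `p`-chief factor carries an invariant symplectic form
(`Lin`, `Grp`), the Sylow `p`-subgroup is normal (`Nrm`), and `p ∣ |C(x)|` forces `p ^ 4 ∣ |C(x)|`
or `p = 5`, `75 ∣ |C(x)|` (`Bot`, `Pln`).  Then `∑ 1 / |C(x)| = 1` is impossible (`Num`) unless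
some centralizer has order `2`, i.e. `G ≅ S₃` (`Sm`, `Main`).
-/

set_option autoImplicit false

namespace Cfsg.Lib.AH

open Subgroup

variable {G : Type*} [Group G]

/-- The order of the centralizer of an element. -/
noncomputable def cz (x : G) : ℕ := Nat.card (centralizer ({x} : Set G))

/-- Elements whose centralizers have the same order are conjugate. -/
def AH (G : Type*) [Group G] : Prop := ∀ x y : G, cz x = cz y → IsConj x y

/-- Every element of `H` is `H`-conjugate to its powers of exponent prime to its order. -/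
def RatIn (H : Subgroup G) : Prop :=
  ∀ x ∈ H, ∀ m : ℕ, m.Coprime (orderOf x) → ∃ g ∈ H, g * x * g⁻¹ = x ^ m

/-- `V` is an irreducible `𝔽_p H`-module inside the rational group `H`, `p ≥ 5`, on which `H`
induces a `p'`-group. -/
structure Md (p : ℕ) (H V : Subgroup G) : Prop where
  hp : p.Prime
  five : 5 ≤ p
  ne : V ≠ ⊥
  le : V ≤ H
  el : IsElementaryAbelian p V
  norm : H ≤ normalizer (V : Set G)
  min : ∀ K : Subgroup G, H ≤ normalizer (K : Set G) → K ≤ V → K = ⊥ ∨ K = V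
  cop : ¬ p ∣ (centralizer (V : Set G)).relIndex H
  rat : RatIn H

/-- An `H`-invariant nondegenerate alternating form on `V`. -/
structure Fm (p : ℕ) (H V : Subgroup G) (B : G → G → ZMod p) : Prop where
  mul_left : ∀ x ∈ V, ∀ y ∈ V, ∀ z ∈ V, B (x * y) z = B x z + B y z
  mul_right : ∀ x ∈ V, ∀ y ∈ V, ∀ z ∈ V, B x (y * z) = B x y + B x z
  inv : ∀ h ∈ H, ∀ x ∈ V, ∀ y ∈ V, B (h * x * h⁻¹) (h * y * h⁻¹) = B x y
  alt : ∀ x ∈ V, B x x = 0
  nd : ∀ x ∈ V, (∀ y ∈ V, B x y = 0) → x = 1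
  surj : ∀ f : G → ZMod p, (∀ x ∈ V, ∀ y ∈ V, f (x * y) = f x + f y) →
    ∃ a ∈ V, ∀ y ∈ V, B a y = f y

/-- `D` acts on the plane `Z` with determinant one (`d + d⁻¹ = τ d`) and rational traces. -/
structure Pl (D Z : Subgroup G) (n : ℕ) (τ : G → ℕ) : Prop where
  ch : ∀ d ∈ D, ∀ w ∈ Z, (d * w * d⁻¹) * (d⁻¹ * w * d) = w ^ τ d
  rat : ∀ d ∈ D, ∀ m : ℕ, m.Coprime n → ∀ w ∈ Z, w ^ τ (d ^ m) = w ^ τ d

/-- The bottom section `Z` of `C_P(k)`. -/
structure Bt (p : ℕ) (P : Subgroup G) (k : G) (Z : Subgroup G) : Prop where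
  le : Z ≤ P ⊓ centralizer {k}
  cen : P ⊓ centralizer {k} ≤ centralizer (Z : Set G)
  norm : centralizer {k} ≤ normalizer (Z : Set G)
  exp : ∀ z ∈ Z, z ^ p = 1

/-- The admissible centralizer orders. -/
def Ok (f : Prop) (c : ℕ) : Prop :=
  c ≠ 0 ∧ (∀ p : ℕ, p.Prime → 7 ≤ p → p ∣ c → p ^ 4 ∣ c) ∧ (5 ∣ c → 625 ∣ c ∨ (f ∧ 75 ∣ c))

end Cfsg.Lib.AH
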