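import Cfsg.Agent.Lib.Symp.Basis

/-!
# Invariant forms from real traces; planes of fixed points
-/

set_option autoImplicit false

namespace Cfsg.Lib.AH

open Module

variable {F : Type*} [Field F]

/-- The trace of `X ↦ P * X * Q` on matrices (standard basis `Matrix.stdBasis`, or write `X` as the
sum of its `Matrix.single` parts). -/
theorem trace_mul_mul {n : Type*} [Fintype n] [DecidableEq n] (P Q : Matrix n n F) :
    LinearMap.trace F (Matrix n n F) (LinearMap.mulLeft F P ∘ₗ LinearMap.mulRight F Q) =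
      P.trace * Q.trace := by
  have hr : ∀ (X : Matrix n n F) (i j : n), (Matrix.stdBasis F n n).repr X (i, j) = X i j := by
    intro X i j
    simp [Matrix.stdBasis]
  rw [LinearMap.trace_eq_matrix_trace F (Matrix.stdBasis F n n), Matrix.trace,
    Fintype.sum_prod_type, Matrix.trace, Matrix.trace, Finset.sum_mul_sum]
  refine Finset.sum_congr rfl fun i _ => Finset.sum_congr rfl fun j _ => ?_
  rw [Matrix.diag_apply, LinearMap.toMatrix_apply, hr, Matrix.stdBasis_eq_single]
  simp only [LinearMap.comp_apply, LinearMap.mulLeft_apply, LinearMap.mulRight_apply,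
    Matrix.diag_apply]
  rw [← Matrix.mul_assoc, Matrix.mul_apply, Finset.sum_eq_single j]
  · simp
  · intro b _ hb
    rw [Matrix.mul_single_apply_of_ne _ _ _ _ _ hb, zero_mul]
  · simp

/-- A finite-dimensional division algebra over a finite field has an element whose right
multiplication has nonzero trace: `E` is finite, a field by `littleWedderburn`
(`DivisionRing.ofIsUnitOrEqZero`), separable over the perfect field `F`, so `Algebra.trace ≠ 0`
(`Algebra.trace_ne_zero` / `Algebra.trace_surjective`). -/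
theorem exists_trace_ne_zero [Finite F] {E : Type*} [Ring E] [Nontrivial E] [Algebra F E]
    [FiniteDimensional F E] (hE : ∀ a : E, IsUnit a ∨ a = 0) :
    ∃ ε : E, LinearMap.trace F E (LinearMap.mulRight F ε) ≠ 0 := by
  have hfin : Finite E := Module.finite_of_finite F
  have hc : ∀ a b : E, a * b = b * a := by
    intro a b
    letI : DivisionRing E := DivisionRing.ofIsUnitOrEqZero hE
    exact (littleWedderburn E).mul_comm a b
  letI : CommRing E := { ‹Ring E› with mul_comm := hc }
  letI : Field E := Field.ofIsUnitOrEqZero hE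
  obtain ⟨ε, hε⟩ := Algebra.trace_surjective F E 1
  refine ⟨ε, ?_⟩
  have : LinearMap.mulRight F ε = Algebra.lmul F E ε := by
    ext x
    exact hc x ε
  rw [this, ← Algebra.trace_apply, hε]
  exact one_ne_zero

/-- Matrix form.  Let `E = Subalgebra.centralizer F (range A)`; by Schur (`hE`) it is a division
algebra; take `ε` from `exists_trace_ne_zero`.  `S : X ↦ ∑ g, A g * X * (A g⁻¹ * ε)` maps into `E`
and is `card Γ • mulRight ε` on `E`, so its trace `∑ g, tr (A g) tr (A g⁻¹ ε)` is nonzero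
(`LinearMap.trace_restrict_eq_of_forall_mem`).  By `htr` and `g ↦ g⁻¹` this is the trace
`∑ g, tr (A g)ᵀ tr (A g ε)` of `T : M ↦ ∑ g, (A g)ᵀ * M * (A g * ε)`.  So `T ≠ 0` and some
`∑ g, (A g)ᵀ * M * A g` is a nonzero invariant matrix. -/
theorem exists_inv_matrix [Finite F] {n Γ : Type*} [Fintype n] [DecidableEq n] [Nonempty n]
    [Group Γ] [Finite Γ] (A : Γ →* Matrix n n F) (hc : (Nat.card Γ : F) ≠ 0)
    (hE : ∀ X : Matrix n n F, (∀ g, A g * X = X * A g) → X ≠ 0 → IsUnit X)
    (htr : ∀ g, (A g⁻¹).trace = (A g).trace) :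
    ∃ M : Matrix n n F, M ≠ 0 ∧ ∀ g, (A g).transpose * M * A g = M := by
  classical
  haveI := Fintype.ofFinite Γ
  let E : Subalgebra F (Matrix n n F) := Subalgebra.centralizer F (Set.range A)
  have hmem : ∀ X, X ∈ E ↔ ∀ g, A g * X = X * A g := by
    intro X
    simp [E, Subalgebra.mem_centralizer_iff]
  have hE' : ∀ a : E, IsUnit a ∨ a = 0 := by
    intro a
    by_cases h0 : a = 0
    · exact Or.inr h0
    left
    obtain ⟨u, hu⟩ := hE a ((hmem _).1 a.2) (fun h => h0 (Subtype.ext h))
    have hi : ((u⁻¹ : (Matrix n n F)ˣ) : Matrix n n F) ∈ E := by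
      refine (hmem _).2 fun g => ?_
      have : Commute (A g) (u : Matrix n n F) := by
        rw [hu]; exact (hmem _).1 a.2 g
      exact this.units_inv_right
    refine ⟨⟨a, ⟨_, hi⟩, Subtype.ext ?_, Subtype.ext ?_⟩, rfl⟩
    · change (a : Matrix n n F) * _ = 1
      rw [← hu]; exact u.mul_inv
    · change _ * (a : Matrix n n F) = 1
      rw [← hu]; exact u.inv_mul
  obtain ⟨ε, hε⟩ := exists_trace_ne_zero (F := F) hE'
  have hεc := (hmem _).1 ε.2
  let S : Matrix n n F →ₗ[F] Matrix n n F :=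
    ∑ g, LinearMap.mulLeft F (A g) ∘ₗ LinearMap.mulRight F (A g⁻¹ * (ε : Matrix n n F))
  have hS : ∀ X, S X = ∑ g, A g * (X * (A g⁻¹ * (ε : Matrix n n F))) := by
    intro X
    simp [S, LinearMap.sum_apply, mul_assoc]
  have hSE : ∀ X, S X ∈ E := by
    intro X
    refine (hmem _).2 fun h => ?_
    rw [hS, Finset.mul_sum, Finset.sum_mul]
    refine Fintype.sum_equiv (Equiv.mulLeft h) _ _ fun g => ?_
    have h1 : A (h * g)⁻¹ * (ε : Matrix n n F) * A h = A g⁻¹ * ε := by
      rw [mul_assoc, ← hεc, ← mul_assoc, ← map_mul]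
      simp
    simp only [Equiv.coe_mulLeft]
    rw [mul_assoc (A (h * g)), mul_assoc X, h1, map_mul, mul_assoc]
  let f : Matrix n n F →ₗ[F] E :=
    { toFun := fun X => ⟨S X, hSE X⟩
      map_add' := fun X Y => Subtype.ext (map_add S X Y)
      map_smul' := fun c X => Subtype.ext (map_smul S c X) }
  have h1 : E.val.toLinearMap ∘ₗ f = S := by
    ext1 X; rfl
  have h2 : f ∘ₗ E.val.toLinearMap = (Nat.card Γ : F) • LinearMap.mulRight F ε := by
    ext1 X
    apply Subtype.ext
    change S X = (Nat.card Γ : F) • ((X : Matrix n n F) * ε)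
    rw [hS, Finset.sum_congr rfl (g := fun _ => (X : Matrix n n F) * ε), Finset.sum_const,
      Finset.card_univ, Nat.card_eq_fintype_card, Nat.cast_smul_eq_nsmul]
    intro g _
    rw [← mul_assoc, (hmem _).1 X.2 g, mul_assoc, ← mul_assoc (A g), ← map_mul]
    simp
  have h3 : LinearMap.trace F _ S ≠ 0 := by
    rw [← h1, LinearMap.trace_comp_comm', h2, map_smul]
    exact mul_ne_zero hc hε
  let T : Matrix n n F →ₗ[F] Matrix n n F :=
    ∑ g, LinearMap.mulLeft F (A g).transpose ∘ₗ LinearMap.mulRight F (A g * (ε : Matrix n n F))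
  have h4 : LinearMap.trace F _ T = LinearMap.trace F _ S := by
    simp only [S, T, map_sum, trace_mul_mul, Matrix.trace_transpose]
    refine Fintype.sum_equiv (Equiv.inv Γ) _ _ fun g => ?_
    simp [htr]
  have h5 : T ≠ 0 := by
    intro h
    rw [h, map_zero] at h4
    exact h3 h4.symm
  obtain ⟨M, hM⟩ : ∃ M, T M ≠ 0 := by
    by_contra h
    push Not at h
    exact h5 (LinearMap.ext h)
  refine ⟨∑ g, (A g).transpose * M * A g, fun h => hM ?_, fun h => ?_⟩
  · have : T M = (∑ g, (A g).transpose * M * A g) * ε := by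
      simp [T, LinearMap.sum_apply, Finset.sum_mul, mul_assoc]
    rw [this, h, zero_mul]
  · rw [Finset.mul_sum, Finset.sum_mul]
    refine Fintype.sum_equiv (Equiv.mulRight h) _ _ fun g => ?_
    simp [mul_assoc]

variable {V Γ : Type*} [AddCommGroup V] [Module F V] [FiniteDimensional F V] [Group Γ] [Finite Γ]

/-- Pass to `Γ ⧸ ρ.ker` (`QuotientGroup.lift`), to matrices in a basis (`LinearMap.toMatrixAlgEquiv`;
Schur's lemma: kernel of a commuting `X ≠ 0` is invariant, so `X` is injective, so a unit), and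
back (`Matrix.toBilin`). -/
theorem exists_form [Finite F] [Nontrivial V] (ρ : Γ →* End F V)
    (hc : ((ρ.ker.index : ℕ) : F) ≠ 0)
    (irr : ∀ W : Submodule F V, (∀ g, ∀ w ∈ W, ρ g w ∈ W) → W = ⊥ ∨ W = ⊤)
    (htr : ∀ g, LinearMap.trace F V (ρ g⁻¹) = LinearMap.trace F V (ρ g)) :
    ∃ B : LinearMap.BilinForm F V, B ≠ 0 ∧ ∀ g x y, B (ρ g x) (ρ g y) = B x y := by
  classical
  let ρ' : Γ ⧸ ρ.ker →* End F V := QuotientGroup.lift ρ.ker ρ le_rfl
  have hρ' : ∀ g : Γ, ρ' g = ρ g := fun g => rfl
  let b := Module.finBasis F V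
  haveI : Nonempty (Fin (finrank F V)) := ⟨⟨0, finrank_pos⟩⟩
  let φ := LinearMap.toMatrixAlgEquiv b
  let A : Γ ⧸ ρ.ker →* Matrix (Fin (finrank F V)) (Fin (finrank F V)) F :=
    (φ.toMulEquiv.toMonoidHom).comp ρ'
  have hA : ∀ g : Γ, A g = LinearMap.toMatrix b b (ρ g) := fun g => rfl
  obtain ⟨M, hM, hinv⟩ := exists_inv_matrix A hc (by
    intro X hX h0
    obtain ⟨Y, rfl⟩ := φ.surjective X
    have hY : ∀ g, ρ g * Y = Y * ρ g := fun g => φ.injective (by
      rw [map_mul, map_mul]; exact hX g)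
    have hk : LinearMap.ker Y = ⊥ := by
      refine (irr _ fun g w hw => ?_).resolve_right fun h => h0 ?_
      · rw [LinearMap.mem_ker] at hw ⊢
        rw [← Module.End.mul_apply, ← hY, Module.End.mul_apply, hw, map_zero]
      · rw [LinearMap.ker_eq_top] at h
        rw [h, map_zero]
    exact ((LinearMap.isUnit_iff_ker_eq_bot Y).2 hk).map φ) (by
    intro g
    induction g using QuotientGroup.induction_on with
    | H g =>
      rw [← QuotientGroup.mk_inv, hA, hA, ← LinearMap.trace_eq_matrix_trace,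
        ← LinearMap.trace_eq_matrix_trace, htr])
  refine ⟨Matrix.toBilin b M, fun h => hM ?_, fun g x y => ?_⟩
  · exact (Matrix.toBilin b).injective (h.trans (map_zero _).symm)
  · have := Matrix.toBilin_comp b b M (A g) (A g)
    rw [hinv, hA, Matrix.toLin_toMatrix] at this
    conv_rhs => rw [← this]
    rfl

/-- An isometry `f` (with inverse `f'`) of a symplectic plane satisfies `f + f' = tr f`: with a
basis `e₁, e₂`, `B e₁ e₂ ≠ 0`, write `f` as a matrix; `B (f' w) u = B w (f u)`. -/
theorem plane_ch (B : LinearMap.BilinForm F V) (hA : B.IsAlt) (hB : B.Nondegenerate)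
    (h2 : finrank F V = 2) (f f' : End F V) (hf : ∀ x y, B (f x) (f y) = B x y)
    (hff : f * f' = 1) (w : V) : f w + f' w = LinearMap.trace F V f • w := by
  classical
  let b := Module.finBasisOfFinrankEq F V h2
  have hb : ∀ v : V, v = b.repr v 0 • b 0 + b.repr v 1 • b 1 := by
    intro v
    conv_lhs => rw [← b.sum_repr v]
    rw [Fin.sum_univ_two]
  have ht : LinearMap.trace F V f = b.repr (f (b 0)) 0 + b.repr (f (b 1)) 1 := by
    rw [LinearMap.trace_eq_matrix_trace F b, Matrix.trace_fin_two, LinearMap.toMatrix_apply,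
      LinearMap.toMatrix_apply]
  have h00 : B (b 0) (b 0) = 0 := hA _
  have h11 : B (b 1) (b 1) = 0 := hA _
  have h10 : B (b 1) (b 0) = - B (b 0) (b 1) := (hA.neg_eq _ _).symm
  have key : ∀ u, B (f w) u + B w (f u) = LinearMap.trace F V f * B w u := by
    intro u
    rw [ht, hb w, hb u]
    simp only [map_add, map_smul]
    rw [hb (f (b 0)), hb (f (b 1))]
    simp only [map_add, map_smul, LinearMap.add_apply, LinearMap.smul_apply, smul_eq_mul, h00, h11,
      h10, b.repr_self, Finsupp.add_apply, Finsupp.smul_apply, Finsupp.single_apply]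
    simp
    ring
  rw [← sub_eq_zero]
  refine hB.1 _ fun u => ?_
  have h1 : B (f' w) u = B w (f u) := by
    rw [← hf (f' w) u, ← Module.End.mul_apply, hff, Module.End.one_apply]
  simp only [map_sub, map_add, map_smul, LinearMap.sub_apply, LinearMap.add_apply,
    LinearMap.smul_apply, smul_eq_mul, h1, key, sub_self]

/-- `e = (orderOf k)⁻¹ • ∑ x : zpowers k, ρ x` is a projection onto `W` with `B w (e v) = B w v`
for `w ∈ W`; so `B` is nondegenerate on `W` (`Symp.even_finrank` for `B.restrict W`).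
`τ d = tr (ρ d * e)` is the trace of `ρ d` on `W` (`LinearMap.trace_restrict_eq_of_forall_mem`),
`plane_ch` applies, and `τ (d ^ m) = τ d` since `x ↦ x ^ m` permutes `zpowers k` (`powCoprime`) and
`d ^ m * x ^ m = (d * x) ^ m`. -/
theorem plane (ρ : Γ →* End F V) (B : LinearMap.BilinForm F V) (hA : B.IsAlt)
    (hB : B.Nondegenerate) (hinv : ∀ g x y, B (ρ g x) (ρ g y) = B x y) (k : Γ)
    (hk : ((orderOf k : ℕ) : F) ≠ 0)
    (htr : ∀ (g : Γ) (m : ℕ), m.Coprime (Nat.card Γ) →
      LinearMap.trace F V (ρ (g ^ m)) = LinearMap.trace F V (ρ g))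
    (W : Submodule F V) (hW : ∀ v, v ∈ W ↔ ρ k v = v) :
    Even (finrank F W) ∧ (finrank F W = 2 → ∃ τ : Γ → F,
      (∀ d, Commute d k → ∀ w ∈ W, ρ d w + ρ d⁻¹ w = τ d • w) ∧
      ∀ d, Commute d k → ∀ m : ℕ, m.Coprime (Nat.card Γ) → τ (d ^ m) = τ d) := by
  classical
  haveI := Fintype.ofFinite (Subgroup.zpowers k)
  let e : End F V := ((orderOf k : ℕ) : F)⁻¹ • ∑ x : Subgroup.zpowers k, ρ x
  have he : ∀ v, e v = ((orderOf k : ℕ) : F)⁻¹ • ∑ x : Subgroup.zpowers k, ρ x v := by
    intro v
    simp [e, LinearMap.sum_apply]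
  have hcard : (Fintype.card (Subgroup.zpowers k)) = orderOf k := by
    rw [← Nat.card_eq_fintype_card, Nat.card_zpowers]
  have hfix : ∀ x : Subgroup.zpowers k, ∀ w ∈ W, ρ x w = w := by
    rintro ⟨x, hx⟩ w hw
    obtain ⟨j, rfl⟩ := (mem_powers_iff_mem_zpowers.2 hx)
    change ρ (k ^ j) w = w
    induction j with
    | zero => simp
    | succ j ih =>
      rw [pow_succ, map_mul, Module.End.mul_apply, (hW w).1 hw]
      exact ih (Subgroup.npow_mem_zpowers k j)
  have h1 : ∀ v, e v ∈ W := by
    intro v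
    rw [hW, he, map_smul, map_sum]
    congr 1
    refine Fintype.sum_equiv (Equiv.mulLeft ⟨k, Subgroup.mem_zpowers k⟩) _ _ fun x => ?_
    simp
  have h2 : ∀ w ∈ W, e w = w := by
    intro w hw
    rw [he, Finset.sum_congr rfl fun x _ => hfix x w hw, Finset.sum_const, Finset.card_univ,
      hcard, ← Nat.cast_smul_eq_nsmul F, smul_smul, inv_mul_cancel₀ hk, one_smul]
  have h3 : ∀ w ∈ W, ∀ v, B w (e v) = B w v := by
    intro w hw v
    rw [he, map_smul, map_sum, Finset.sum_congr rfl (g := fun _ => B w v), Finset.sum_const,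
      Finset.card_univ, hcard, nsmul_eq_mul, smul_eq_mul, ← mul_assoc, inv_mul_cancel₀ hk,
      one_mul]
    intro x _
    conv_lhs => rw [← hfix x w hw]
    exact hinv _ _ _
  have hA' : (B.restrict W).IsAlt := fun w => hA (w : V)
  have hL : ∀ w : W, (∀ u : W, B.restrict W w u = 0) → w = 0 := by
    intro w hw
    refine Subtype.ext (hB.1 _ fun v => ?_)
    rw [← h3 w w.2 v]
    exact hw ⟨_, h1 v⟩
  have hB' : (B.restrict W).Nondegenerate :=
    ⟨hL, fun w hw => hL w fun u => by rw [← hA'.neg_eq, hw, neg_zero]⟩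
  refine ⟨Symp.even_finrank hA' hB', fun hW2 => ⟨fun d => LinearMap.trace F V (ρ d * e), ?_, ?_⟩⟩
  · have hst : ∀ d, Commute d k → ∀ w ∈ W, ρ d w ∈ W := by
      intro d hd w hw
      rw [hW, ← Module.End.mul_apply, ← map_mul, ← hd.eq, map_mul, Module.End.mul_apply,
        (hW w).1 hw]
    intro d hd w hw
    have hp := plane_ch (B.restrict W) hA' hB' hW2 ((ρ d).restrict (hst d hd))
      ((ρ d⁻¹).restrict (hst d⁻¹ hd.inv_left)) (fun x y => hinv d x y) (by
        ext x
        change ρ d (ρ d⁻¹ x) = x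
        rw [← Module.End.mul_apply, ← map_mul, mul_inv_cancel, map_one, Module.End.one_apply])
      ⟨w, hw⟩
    have hm : ∀ v, (ρ d * e) v ∈ W := fun v => hst d hd _ (h1 v)
    have hr : (ρ d).restrict (hst d hd) = (ρ d * e).restrict fun x _ => hm x := by
      ext x
      change ρ d x = ρ d (e x)
      rw [h2 x x.2]
    rw [hr, LinearMap.trace_restrict_eq_of_forall_mem W _ hm, ← hr] at hp
    exact congrArg Subtype.val hp
  · intro d hd m hm
    have hs : ∀ d, LinearMap.trace F V (ρ d * e) =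
        ((orderOf k : ℕ) : F)⁻¹ * ∑ x : Subgroup.zpowers k, LinearMap.trace F V (ρ (d * x)) := by
      intro d
      simp [e, Finset.mul_sum]
    have hco : (Nat.card (Subgroup.zpowers k)).Coprime m :=
      (hm.coprime_dvd_right (Subgroup.card_subgroup_dvd_card _)).symm
    simp only [hs]
    congr 1
    refine (Fintype.sum_equiv (powCoprime hco) _ _ fun x => ?_).symm
    have hx : Commute d (x : Γ) := by
      obtain ⟨j, hj⟩ := x.2
      rw [← hj]
      exact hd.zpow_right j
    rw [← htr _ m hm, hx.mul_pow]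
    rfl

end Cfsg.Lib.AH
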