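import Cfsg.Agent.Lib.AH.Bas
import Cfsg.Agent.Lib.AH.Lin

/-!
# The symplectic form on a chief factor, group language
-/

set_option autoImplicit false

namespace Cfsg.Lib.AH

open Subgroup

universe u

variable {G : Type u} [Group G] [Finite G] {p : ℕ} {H V : Subgroup G}

theorem exists_rho (p : ℕ) {A Γ : Type*} [AddCommGroup A] [Module (ZMod p) A] [Group Γ]
    (c : Γ → A →+ A) (h1 : ∀ u, c 1 u = u) (hm : ∀ g g' u, c (g * g') u = c g (c g' u)) :
    ∃ ρ : Γ →* Module.End (ZMod p) A, ∀ g u, ρ g u = c g u :=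
  ⟨{ toFun := fun g => (c g).toZModLinearMap p
     map_one' := LinearMap.ext h1
     map_mul' := fun g g' => LinearMap.ext (hm g g') }, fun _ _ => rfl⟩

/-- The module: `U = Additive V` with `AddCommGroup.zmodModule`, `ρ h` = conjugation by `h`
(`AddMonoidHom.toZModLinearMap`).  `e : U → G` is the inclusion. -/
theorem Md.exists_rep (h : Md p H V) [Fact p.Prime] :
    ∃ (U : Type u) (_ : AddCommGroup U) (_ : Module (ZMod p) U) (_ : Finite U) (e : U → G)
      (ρ : H →* Module.End (ZMod p) U), Function.Injective e ∧ (∀ x, x ∈ V ↔ ∃ u, e u = x) ∧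
      (∀ u v, e (u + v) = e u * e v) ∧ ∀ (g : H) u, e (ρ g u) = g * e u * (g : G)⁻¹ := by
  haveI := h.el.1
  letI : CommGroup V := IsMulCommutative.instCommGroup
  letI : Module (ZMod p) (Additive V) := AddCommGroup.zmodModule fun x =>
    congrArg Additive.ofMul (Subtype.ext (h.el.2 _ x.toMul.2) : x.toMul ^ p = 1)
  let c : H → Additive V →+ Additive V := fun g => AddMonoidHom.mk'
    (fun u => Additive.ofMul (⟨g * u.toMul * (g : G)⁻¹,
      (mem_normalizer_iff.1 (h.norm g.2) _).1 u.toMul.2⟩ : V)) fun u v =>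
        congrArg Additive.ofMul (Subtype.ext (by simp [mul_assoc]))
  have hc : ∀ g u, (((c g u).toMul : V) : G) = g * u.toMul * (g : G)⁻¹ := fun g u => rfl
  have hi : Function.Injective fun u : Additive V => (u.toMul : G) := fun u v e => Subtype.ext e
  obtain ⟨ρ, hρ⟩ := exists_rho p c (fun u => hi (by simp only [hc]; simp))
    fun g g' u => hi (by simp only [hc]; simp [mul_assoc])
  refine ⟨Additive V, inferInstance, inferInstance, inferInstance, fun u => (u.toMul : G), ρ,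
    hi, fun x => ⟨fun hx => ⟨Additive.ofMul ⟨x, hx⟩, rfl⟩, ?_⟩, fun u v => rfl,
    fun g u => by rw [hρ]; exact hc g u⟩
  rintro ⟨u, rfl⟩
  exact u.toMul.2

omit [Finite G] in
theorem e_zero {U : Type*} [AddCommGroup U] {e : U → G} (h3 : ∀ u v, e (u + v) = e u * e v) :
    e 0 = 1 := by
  have := h3 0 0
  rw [add_zero] at this
  exact left_eq_mul.1 this

omit [Finite G] in
theorem e_nsmul {U : Type*} [AddCommGroup U] {e : U → G} (h3 : ∀ u v, e (u + v) = e u * e v)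
    (n : ℕ) (u : U) : e (n • u) = e u ^ n := by
  induction n with
  | zero => rw [zero_smul, e_zero h3, pow_zero]
  | succ n ih => rw [succ_nsmul, h3, ih, pow_succ]

omit [Finite G] in
theorem e_neg {U : Type*} [AddCommGroup U] {e : U → G} (h3 : ∀ u v, e (u + v) = e u * e v)
    (u : U) : e (-u) = (e u)⁻¹ :=
  eq_inv_of_mul_eq_one_left (by rw [← h3, neg_add_cancel, e_zero h3])

omit [Finite G] in
theorem e_smul [NeZero p] {U : Type*} [AddCommGroup U] [Module (ZMod p) U] {e : U → G}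
    (h3 : ∀ u v, e (u + v) = e u * e v) (c : ZMod p) (u : U) : e (c • u) = e u ^ c.val := by
  rw [← e_nsmul h3, ← Nat.cast_smul_eq_nsmul (ZMod p), ZMod.natCast_zmod_val]

omit [Finite G] in
theorem trace_conj' {F U Γ : Type*} [Field F] [AddCommGroup U] [Module F U] [FiniteDimensional F U]
    [Group Γ] (ρ : Γ →* Module.End F U) (x g : Γ) :
    LinearMap.trace F U (ρ (x * g * x⁻¹)) = LinearMap.trace F U (ρ g) := by
  rw [map_mul ρ, map_mul ρ, LinearMap.trace_mul_comm, ← map_mul ρ, ← map_mul ρ, ← mul_assoc,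
    inv_mul_cancel, one_mul]

/-- The module of `exists_rep` has an invariant nondegenerate alternating form: `exists_form`
applies (`ρ.ker = (centralizer V).subgroupOf H`, invariant submodules give invariant subgroups,
`g⁻¹` is conjugate to `g` in `H` by `RatIn.inv`).  It is alternating: `v` is conjugate to `v ^ 2`,
so `B v v = 4 * B v v` and `3 ≠ 0` in `ZMod p`.  The left radical is invariant and proper. -/
theorem Md.exists_bilin (h : Md p H V) [Fact p.Prime] {U : Type*} [AddCommGroup U]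
    [Module (ZMod p) U] [Finite U] {e : U → G} {ρ : H →* Module.End (ZMod p) U}
    (h1 : Function.Injective e) (h2 : ∀ x, x ∈ V ↔ ∃ u, e u = x)
    (h3 : ∀ u v, e (u + v) = e u * e v) (h4 : ∀ (g : H) u, e (ρ g u) = g * e u * (g : G)⁻¹) :
    ∃ B : LinearMap.BilinForm (ZMod p) U, B.IsAlt ∧ B.Nondegenerate ∧
      ∀ g x y, B (ρ g x) (ρ g y) = B x y := by
  have he : ∀ u, e u ∈ V := fun u => (h2 _).2 ⟨u, rfl⟩
  haveI : Nontrivial U := by
    obtain ⟨⟨x, hx⟩, hx1⟩ := ne_bot_iff_exists_ne_one.1 h.ne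
    obtain ⟨u, rfl⟩ := (h2 x).1 hx
    exact ⟨u, 0, fun e0 => hx1 (Subtype.ext (by simp [e0, e_zero h3]))⟩
  have hker : ρ.ker = (centralizer (V : Set G)).subgroupOf H := by
    ext g
    rw [MonoidHom.mem_ker, mem_subgroupOf]
    refine ⟨fun hg x hx => ?_, fun hg => LinearMap.ext fun u => h1 ?_⟩
    · obtain ⟨u, rfl⟩ := (h2 x).1 hx
      have := h4 g u
      rw [hg, Module.End.one_apply, eq_mul_inv_iff_mul_eq] at this
      exact this
    · rw [h4, Module.End.one_apply, ← hg _ (he u), mul_inv_cancel_right]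
  have irr : ∀ W : Submodule (ZMod p) U, (∀ g, ∀ w ∈ W, ρ g w ∈ W) → W = ⊥ ∨ W = ⊤ := by
    intro W hW
    let K : Subgroup G :=
      { carrier := e '' W
        one_mem' := ⟨0, W.zero_mem, e_zero h3⟩
        mul_mem' := by
          rintro _ _ ⟨u, hu, rfl⟩ ⟨v, hv, rfl⟩
          exact ⟨u + v, W.add_mem hu hv, h3 u v⟩
        inv_mem' := by
          rintro _ ⟨u, hu, rfl⟩
          exact ⟨-u, W.neg_mem hu, e_neg h3 u⟩ }
    have hK : ∀ g ∈ H, ∀ x ∈ K, g * x * g⁻¹ ∈ K := by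
      rintro g hg _ ⟨u, hu, rfl⟩
      exact ⟨_, hW ⟨g, hg⟩ u hu, h4 _ u⟩
    rcases h.min K (fun g hg => mem_normalizer_iff.2 fun x => ⟨hK g hg x, fun hx => by
      simpa [mul_assoc] using hK g⁻¹ (H.inv_mem hg) _ hx⟩) (by
        rintro _ ⟨u, -, rfl⟩; exact he u) with h0 | h0
    · refine Or.inl (eq_bot_iff.2 fun u hu => h1 ?_)
      have : e u ∈ K := ⟨u, hu, rfl⟩
      rwa [h0, mem_bot, ← e_zero h3] at this
    · refine Or.inr (eq_top_iff.2 fun u _ => ?_)
      obtain ⟨v, hv, e1⟩ : e u ∈ K := h0 ▸ he u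
      exact h1 e1 ▸ hv
  obtain ⟨B, hB0, hB⟩ := exists_form ρ
    (by rw [hker, Ne, ZMod.natCast_eq_zero_iff]; exact h.cop) irr fun g => by
      obtain ⟨x, hx, e1⟩ := h.rat.inv g.2
      rw [← trace_conj' ρ ⟨x, hx⟩ g]
      congr 2
      exact Subtype.ext e1.symm
  have h5 := h.five
  have hA : B.IsAlt := fun u => by
    by_cases hu : u = 0
    · simp [hu]
    have ho : orderOf (e u) = p := orderOf_eq_prime (h.el.2 _ (he u)) fun e1 =>
      hu (h1 (e1.trans (e_zero h3).symm))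
    obtain ⟨g, hg, e1⟩ := h.rat _ (h.le (he u)) 2
      (ho ▸ (Nat.coprime_primes Nat.prime_two h.hp).2 (by omega))
    have e2 : ρ ⟨g, hg⟩ u = u + u := h1 (by rw [h4, h3, ← sq]; exact e1)
    have e3 := hB ⟨g, hg⟩ u u
    simp only [e2, map_add, LinearMap.add_apply] at e3
    have h30 : ((3 : ℕ) : ZMod p) ≠ 0 := by
      rw [Ne, ZMod.natCast_eq_zero_iff, Nat.prime_dvd_prime_iff_eq h.hp Nat.prime_three]
      omega
    refine (mul_eq_zero.1 (?_ : ((3 : ℕ) : ZMod p) * B u u = 0)).resolve_left h30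
    push_cast
    linear_combination e3
  have hl : ∀ u, (∀ v, B u v = 0) → u = 0 := by
    rcases irr (LinearMap.ker B) (fun g w hw => LinearMap.ext fun v => by
      have := hB g w (ρ g⁻¹ v)
      rw [← Module.End.mul_apply, ← map_mul, mul_inv_cancel, map_one, Module.End.one_apply,
        LinearMap.mem_ker.1 hw] at this
      exact this) with h0 | h0
    · exact fun u hu => LinearMap.ker_eq_bot'.1 h0 u (LinearMap.ext hu)
    · exact absurd (LinearMap.ker_eq_top.1 h0) hB0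
  exact ⟨B, hA, ⟨hl, fun u hu => hl u fun v => by rw [← hA.neg_eq, hu, neg_zero]⟩, hB⟩

/-- Transport `exists_bilin` along `Function.invFun e`; `surj` is the surjectivity of
`LinearMap.BilinForm.toDual` (`f ∘ e` is additive, hence `ZMod p`-linear). -/
theorem Md.exists_fm (h : Md p H V) : ∃ B : G → G → ZMod p, Fm p H V B := by
  haveI := Fact.mk h.hp
  obtain ⟨U, _, _, _, e, ρ, h1, h2, h3, h4⟩ := h.exists_rep
  obtain ⟨B, hA, hN, hB⟩ := h.exists_bilin h1 h2 h3 h4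
  haveI : Nonempty U := ⟨0⟩
  have hi := Function.leftInverse_invFun h1
  refine ⟨fun x y => B (Function.invFun e x) (Function.invFun e y), ?_, ?_, ?_, ?_, ?_, ?_⟩
  · intro x hx y hy z _
    obtain ⟨u, rfl⟩ := (h2 x).1 hx
    obtain ⟨v, rfl⟩ := (h2 y).1 hy
    simp only [← h3, hi u, hi v, hi (u + v), map_add, LinearMap.add_apply]
  · intro x _ y hy z hz
    obtain ⟨u, rfl⟩ := (h2 y).1 hy
    obtain ⟨v, rfl⟩ := (h2 z).1 hz
    simp only [← h3, hi u, hi v, hi (u + v), map_add]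
  · intro g hg x hx y hy
    obtain ⟨u, rfl⟩ := (h2 x).1 hx
    obtain ⟨v, rfl⟩ := (h2 y).1 hy
    have e1 := h4 ⟨g, hg⟩ u
    have e2 := h4 ⟨g, hg⟩ v
    simp only at e1 e2
    simp only [← e1, ← e2, hi u, hi v, hi (ρ _ _), hB]
  · exact fun x _ => hA _
  · intro x hx hy
    obtain ⟨u, rfl⟩ := (h2 x).1 hx
    have : u = 0 := hN.1 u fun v => by
      have := hy _ ((h2 _).2 ⟨v, rfl⟩)
      simpa only [hi u, hi v] using this
    rw [this, e_zero h3]
  · intro f hf
    let f' : U →ₗ[ZMod p] ZMod p := (AddMonoidHom.mk' (fun u => f (e u)) fun u v => by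
      rw [h3, hf _ ((h2 _).2 ⟨u, rfl⟩) _ ((h2 _).2 ⟨v, rfl⟩)]).toZModLinearMap p
    obtain ⟨a, ha⟩ := (B.toDual hN).surjective f'
    refine ⟨e a, (h2 _).2 ⟨a, rfl⟩, fun y hy => ?_⟩
    obtain ⟨v, rfl⟩ := (h2 y).1 hy
    simp only [hi a, hi v]
    exact LinearMap.congr_fun ha v

/-- `plane` for `W = ker (ρ k - 1)`, which `e` maps onto `V ⊓ centralizer {k}`;
`card W = p ^ finrank W` (`Module.natCard_eq_pow_finrank`); `τ d = (τ' ⟨d, _⟩).val`, and
`e (c • u) = e u ^ c.val`. -/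
theorem Md.plane (h : Md p H V) {k : G} (hk : k ∈ H) (hpk : ¬ p ∣ orderOf k) :
    (∃ j : ℕ, Nat.card ↥(V ⊓ centralizer {k}) = p ^ (2 * j)) ∧
      (Nat.card ↥(V ⊓ centralizer {k}) = p ^ 2 →
        ∃ τ : G → ℕ, Pl (H ⊓ centralizer {k}) (V ⊓ centralizer {k}) (Nat.card G) τ) := by
  haveI := Fact.mk h.hp
  obtain ⟨U, _, _, _, e, ρ, h1, h2, h3, h4⟩ := h.exists_rep
  obtain ⟨B, hA, hN, hB⟩ := h.exists_bilin h1 h2 h3 h4
  let W : Submodule (ZMod p) U := LinearMap.ker (ρ ⟨k, hk⟩ - 1)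
  have hW : ∀ v, v ∈ W ↔ ρ ⟨k, hk⟩ v = v := fun v => by
    simp only [W, LinearMap.mem_ker, LinearMap.sub_apply, Module.End.one_apply, sub_eq_zero]
  have hW' : ∀ v, v ∈ W ↔ e v ∈ V ⊓ centralizer {k} := fun v => by
    rw [hW, ← h1.eq_iff, h4, mem_inf, mem_centralizer_singleton_iff, mul_inv_eq_iff_eq_mul]
    exact ⟨fun e1 => ⟨(h2 _).2 ⟨v, rfl⟩, e1.symm⟩, fun e1 => e1.2.symm⟩
  have hcard : Nat.card ↥(V ⊓ centralizer {k}) = p ^ Module.finrank (ZMod p) W := by
    have := Module.natCard_eq_pow_finrank (K := ZMod p) (V := W)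
    rw [Nat.card_zmod] at this
    rw [← this]
    refine (Nat.card_congr (Equiv.ofBijective
      (fun w : W => (⟨e w, (hW' _).1 w.2⟩ : ↥(V ⊓ centralizer {k}))) ⟨fun u v e1 => ?_, ?_⟩)).symm
    · exact Subtype.ext (h1 (congrArg Subtype.val e1))
    · rintro ⟨x, hx⟩
      obtain ⟨u, rfl⟩ := (h2 x).1 hx.1
      exact ⟨⟨u, (hW' u).2 hx⟩, rfl⟩
  obtain ⟨⟨j, hj⟩, hpl⟩ := AH.plane ρ B hA hN hB ⟨k, hk⟩
    (by rw [Ne, ZMod.natCast_eq_zero_iff, orderOf_mk]; exact hpk) (fun g m hm => by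
      obtain ⟨x, hx, e1⟩ := h.rat _ g.2 m
        (hm.coprime_dvd_right (by rw [orderOf_coe]; exact orderOf_dvd_natCard g))
      rw [← trace_conj' ρ ⟨x, hx⟩ g]
      congr 2
      exact Subtype.ext e1.symm) W hW
  refine ⟨⟨j, by rw [hcard, hj, two_mul]⟩, fun hc => ?_⟩
  rw [hcard] at hc
  obtain ⟨τ, hτ1, hτ2⟩ := hpl (Nat.pow_right_injective h.hp.two_le hc)
  classical
  have hcm : ∀ d (hd : d ∈ H ⊓ centralizer {k}), Commute (⟨d, hd.1⟩ : H) ⟨k, hk⟩ := fun d hd =>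
    Subtype.ext (mem_centralizer_singleton_iff.1 hd.2)
  refine ⟨fun d => if hd : d ∈ H then (τ ⟨d, hd⟩).val else 0, fun d hd w hw => ?_,
    fun d hd m hm w _ => ?_⟩
  · obtain ⟨u, rfl⟩ := (h2 w).1 hw.1
    have := congrArg e (hτ1 _ (hcm d hd) u ((hW' u).2 hw))
    rw [h3, h4, h4, e_smul h3] at this
    rw [dif_pos (mem_inf.1 hd).1, ← this]
    simp
  · rw [dif_pos (mem_inf.1 hd).1, dif_pos (H.pow_mem hd.1 m), ← hτ2 _ (hcm d hd) m
      (hm.coprime_dvd_right (card_subgroup_dvd_card H))]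
    rfl

end Cfsg.Lib.AH
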