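import Cfsg.Agent.Lib.AH.Def

/-!
# Egyptian fraction bounds
-/

set_option autoImplicit false

namespace Cfsg.Lib.AH

/-- All finite sums of reciprocals of distinct numbers with property `Q` are at most `γ`. -/
def Bd (Q : ℕ → Prop) (γ : ℝ) : Prop :=
  ∀ T : Finset ℕ, (∀ c ∈ T, Q c) → ∑ c ∈ T, (1 / (c : ℝ)) ≤ γ

theorem Bd.mono {Q Q' : ℕ → Prop} {γ γ' : ℝ} (h : Bd Q γ) (hQ : ∀ c, Q' c → Q c) (hγ : γ ≤ γ') :
    Bd Q' γ' := by
  exact fun T hT => (h T fun c hc => hQ c (hT c hc)).trans hγ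

/-- Choose a factorization `c = a c * b c`; `c ↦ (a c, b c)` is injective, so the sum is at most
the sum over the product of the two images (`Finset.sum_mul_sum`). -/
theorem Bd.mul {Q₁ Q₂ : ℕ → Prop} {γ₁ γ₂ : ℝ} (h₁ : Bd Q₁ γ₁) (h₂ : Bd Q₂ γ₂) :
    Bd (fun c => ∃ a b, Q₁ a ∧ Q₂ b ∧ c = a * b) (γ₁ * γ₂) := by
  intro T hT
  choose! a b ha hb e using hT
  have h1 : ∑ c ∈ T, (1 / (c : ℝ)) =
      ∑ p ∈ T.image (fun c => (a c, b c)), (1 / (p.1 : ℝ)) * (1 / (p.2 : ℝ)) := by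
    rw [Finset.sum_image fun x hx y hy h => by
      rw [e x hx, e y hy, (Prod.mk.inj h).1, (Prod.mk.inj h).2]]
    refine Finset.sum_congr rfl fun c hc => ?_
    conv_lhs => rw [e c hc]
    rw [Nat.cast_mul, one_div_mul_one_div]
  have h2 : T.image (fun c => (a c, b c)) ⊆ T.image a ×ˢ T.image b := fun p hp => by
    obtain ⟨c, hc, rfl⟩ := Finset.mem_image.1 hp
    exact Finset.mem_product.2 ⟨Finset.mem_image_of_mem _ hc, Finset.mem_image_of_mem _ hc⟩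
  rw [h1]
  refine (Finset.sum_le_sum_of_subset_of_nonneg h2 fun _ _ _ => by positivity).trans ?_
  rw [Finset.sum_product' _ _ fun (x y : ℕ) => 1 / (x : ℝ) * (1 / (y : ℝ)), ← Finset.sum_mul_sum]
  refine mul_le_mul (h₁ _ fun x hx => ?_) (h₂ _ fun x hx => ?_) (by positivity)
    (by simpa using h₁ ∅ (by simp))
  · obtain ⟨c, hc, rfl⟩ := Finset.mem_image.1 hx
    exact ha c hc
  · obtain ⟨c, hc, rfl⟩ := Finset.mem_image.1 hx
    exact hb c hc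

theorem Bd.or {Q₁ Q₂ : ℕ → Prop} {γ₁ γ₂ : ℝ} (h₁ : Bd Q₁ γ₁) (h₂ : Bd Q₂ γ₂) :
    Bd (fun c => Q₁ c ∨ Q₂ c) (γ₁ + γ₂) := by
  classical
  intro T hT
  rw [← Finset.sum_filter_add_sum_filter_not T Q₁]
  exact add_le_add (h₁ _ fun c hc => (Finset.mem_filter.1 hc).2) (h₂ _ fun c hc =>
    (hT c (Finset.mem_filter.1 hc).1).resolve_left (Finset.mem_filter.1 hc).2)

/-- Apply `h` to `T ∪ T₀`. -/
theorem Bd.remove {Q : ℕ → Prop} {γ : ℝ} (h : Bd Q γ) (T₀ : Finset ℕ) (h₀ : ∀ c ∈ T₀, Q c) :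
    Bd (fun c => Q c ∧ c ∉ T₀) (γ - ∑ c ∈ T₀, (1 / (c : ℝ))) := by
  intro T hT
  have := h (T ∪ T₀) fun c hc => (Finset.mem_union.1 hc).elim (fun h => (hT c h).1) (h₀ c)
  rw [Finset.sum_union (Finset.disjoint_left.2 fun c hc => (hT c hc).2)] at this
  linarith

theorem bd_finset (T₀ : Finset ℕ) : Bd (fun c => c ∈ T₀) (∑ c ∈ T₀, (1 / (c : ℝ))) := by
  exact fun T hT => Finset.sum_le_sum_of_subset_of_nonneg hT fun _ _ _ => by positivity

/-- Geometric series. -/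
theorem bd_geom {n : ℕ} (hn : 2 ≤ n) (j : ℕ) :
    Bd (fun c => ∃ i, c = n ^ (j + i)) (1 / ((n : ℝ) ^ j) * (n / (n - 1))) := by
  intro T hT
  choose! i e using hT
  have h0 : (2 : ℝ) ≤ n := by exact_mod_cast hn
  have h1 : (0 : ℝ) ≤ 1 / n := by positivity
  have h2 : (1 : ℝ) / n < 1 := by rw [div_lt_one (by linarith)]; linarith
  have h3 : ∑ c ∈ T, (1 / (c : ℝ)) = 1 / (n : ℝ) ^ j * ∑ k ∈ T.image i, (1 / (n : ℝ)) ^ k := by
    rw [Finset.sum_image fun x hx y hy h => by rw [e x hx, e y hy, h], Finset.mul_sum]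
    refine Finset.sum_congr rfl fun c hc => ?_
    conv_lhs => rw [e c hc]
    rw [Nat.cast_pow, pow_add, one_div_pow, one_div_mul_one_div]
  rw [h3]
  refine mul_le_mul_of_nonneg_left ?_ (by positivity)
  refine ((summable_geometric_of_lt_one h1 h2).sum_le_tsum _ fun _ _ => by positivity).trans_eq ?_
  have : (n : ℝ) - 1 ≠ 0 := by linarith
  rw [tsum_geometric_of_lt_one h1 h2]
  field_simp

/-- Induction on `N ≥ 7` for the numbers all of whose prime factors `p` satisfy `7 ≤ p < N` and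
`p ^ 4 ∣ a`, with the bound `1.005 - 1 / (40 (N - 1))`: passing from `N` to `N + 1` multiplies by
`1 + 1 / (N ^ 3 (N - 1))` (factor `1` or `N ^ (4 + i)`; `Nat.exists_eq_pow_mul_and_not_dvd`). -/
theorem bd_big : Bd (fun a => a ≠ 0 ∧ ∀ p : ℕ, p.Prime → p ∣ a → 7 ≤ p ∧ p ^ 4 ∣ a) 1.005 := by
  have key : ∀ N : ℕ, 7 ≤ N → Bd (fun a => a ≠ 0 ∧ ∀ p : ℕ, p.Prime → p ∣ a → 7 ≤ p ∧ p < N ∧ p ^ 4 ∣ a)
      (1.005 - 1 / (40 * ((N : ℝ) - 1))) := by
    intro N hN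
    induction N, hN using Nat.le_induction with
    | base =>
      refine (bd_finset {1}).mono (fun a ha => Finset.mem_singleton.2 ?_) (by norm_num)
      by_contra h
      obtain ⟨p, hp, hd⟩ := Nat.exists_prime_and_dvd h
      have := ha.2 p hp hd
      omega
    | succ N hN ih =>
      have h7 : (7 : ℝ) ≤ N := by exact_mod_cast hN
      refine (((bd_finset {1}).or (bd_geom (n := N) (by omega) 4)).mul ih).mono (fun a ha => ?_) ?_
      · by_cases hp : N.Prime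
        · obtain ⟨e, b, hb, rfl⟩ := Nat.exists_eq_pow_mul_and_not_dvd ha.1 N hp.ne_one
          refine ⟨N ^ e, b, ?_, ⟨right_ne_zero_of_mul ha.1, fun p hp' hd => ?_⟩, rfl⟩
          · rcases Nat.eq_zero_or_pos e with rfl | he
            · exact .inl (by simp)
            · have h1 := (ha.2 N hp (dvd_mul_of_dvd_left (dvd_pow_self N he.ne') b)).2.2
              have h2 := (Nat.pow_dvd_pow_iff_le_right hp.one_lt).1
                ((((Nat.Prime.coprime_iff_not_dvd hp).2 hb).pow_left 4).dvd_of_dvd_mul_right h1)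
              exact .inr ⟨e - 4, by rw [Nat.add_sub_cancel' h2]⟩
          · obtain ⟨h1, h2, h3⟩ := ha.2 p hp' (dvd_mul_of_dvd_right hd _)
            have h4 : p ≠ N := fun h => hb (h ▸ hd)
            exact ⟨h1, by omega,
              (((Nat.coprime_primes hp' hp).2 h4).pow 4 e).dvd_of_dvd_mul_left h3⟩
        · refine ⟨1, a, .inl (by simp), ⟨ha.1, fun p hp' hd => ?_⟩, (one_mul a).symm⟩
          obtain ⟨h1, h2, h3⟩ := ha.2 p hp' hd
          have h4 : p ≠ N := fun h => hp (h ▸ hp')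
          exact ⟨h1, by omega, h3⟩
      · have h1 : (0 : ℝ) < N - 1 := by linarith
        have h2 : (0 : ℝ) < N := by linarith
        have h3 : 1 / (N : ℝ) ^ 4 * (N / (N - 1)) * 1.005 ≤ 1 / (40 * ((N : ℝ) - 1)) - 1 / (40 * N) := by
          rw [div_sub_div _ _ (by positivity) (by positivity), div_mul_div_comm, div_mul_eq_mul_div,
            div_le_div_iff₀ (by positivity) (by positivity)]
          have h5 : (49 : ℝ) ≤ N ^ 2 := by nlinarith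
          have h6 : 0 ≤ (N : ℝ) ^ 2 * (N - 1) * (N ^ 2 - 49) := by positivity
          have h7 : 0 ≤ (N : ℝ) ^ 2 * (N - 1) := by positivity
          nlinarith
        have h4 : 0 ≤ 1 / (N : ℝ) ^ 4 * (N / (N - 1)) * (1 / (40 * ((N : ℝ) - 1))) := by positivity
        simp only [Finset.sum_singleton, Nat.cast_one, Nat.cast_add, add_sub_cancel_right, div_one]
        linarith
  intro T hT
  refine (key (T.sup id + 7) (by omega) T fun a ha => ⟨(hT a ha).1, fun p hp hd => ?_⟩).trans ?_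
  · have h1 := (hT a ha).2 p hp hd
    have h2 := Nat.le_of_dvd (Nat.pos_of_ne_zero (hT a ha).1) hd
    have h3 : a ≤ T.sup id := Finset.le_sup (f := id) ha
    exact ⟨h1.1, by omega, h1.2⟩
  · have : (0 : ℝ) ≤ (T.sup id : ℕ) := Nat.cast_nonneg _
    push_cast
    have : 0 ≤ 1 / (40 * (((T.sup id : ℕ) : ℝ) + 7 - 1)) := by
      apply div_nonneg <;> linarith
    linarith

theorem big_one : (1 : ℕ) ≠ 0 ∧ ∀ p : ℕ, p.Prime → p ∣ 1 → 7 ≤ p ∧ p ^ 4 ∣ 1 :=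
  ⟨one_ne_zero, fun _ hp hd => absurd hd hp.not_dvd_one⟩

theorem bd_comb {Q₂ Q₃ Q₅ : ℕ → Prop} {γ₂ γ₃ γ₅ : ℝ} (h₂ : Bd Q₂ γ₂) (h₃ : Bd Q₃ γ₃) (h₅ : Bd Q₅ γ₅) :
    Bd (fun c => ∃ x u s a, Q₂ x ∧ Q₃ u ∧ Q₅ s ∧ (a ≠ 0 ∧ ∀ p : ℕ, p.Prime → p ∣ a → 7 ≤ p ∧ p ^ 4 ∣ a) ∧
      c = x * (u * (s * a))) (γ₂ * (γ₃ * (γ₅ * 1.005))) :=
  (h₂.mul (h₃.mul (h₅.mul bd_big))).mono (fun _ ⟨x, u, s, a, h1, h2, h3, h4, e⟩ =>
    ⟨x, _, h1, ⟨u, _, h2, ⟨s, a, h3, h4, rfl⟩, rfl⟩, e⟩) le_rfl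

theorem bd_five : Bd (fun c => c ∈ ({1} : Finset ℕ) ∨ ∃ i, c = 5 ^ (4 + i)) 1.002 :=
  ((bd_finset {1}).or (bd_geom (n := 5) (by norm_num) 4)).mono (fun _ h => h) (by norm_num)

theorem Ok.dec {f : Prop} {c : ℕ} (h : Ok f c) : ∃ i j l a : ℕ,
    (a ≠ 0 ∧ ∀ p : ℕ, p.Prime → p ∣ a → 7 ≤ p ∧ p ^ 4 ∣ a) ∧ c = 2 ^ i * (3 ^ j * (5 ^ l * a)) ∧
      ((5 ^ l ∈ ({1} : Finset ℕ) ∨ ∃ i, 5 ^ l = 5 ^ (4 + i)) ∨
        f ∧ 1 ≤ j ∧ 5 ^ l ∈ ({25, 125} : Finset ℕ)) := by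
  obtain ⟨h0, h7, h5⟩ := h
  obtain ⟨i, c1, h1, rfl⟩ := Nat.exists_eq_pow_mul_and_not_dvd h0 2 (by norm_num)
  obtain ⟨j, c2, h2, rfl⟩ := Nat.exists_eq_pow_mul_and_not_dvd (right_ne_zero_of_mul h0) 3 (by norm_num)
  obtain ⟨l, a, h3, rfl⟩ := Nat.exists_eq_pow_mul_and_not_dvd
    (right_ne_zero_of_mul (right_ne_zero_of_mul h0)) 5 (by norm_num)
  have k5 : ∀ k, 5 ^ k ∣ 2 ^ i * (3 ^ j * (5 ^ l * a)) → k ≤ l := fun k hk =>
    (Nat.pow_dvd_pow_iff_le_right (by norm_num)).1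
      ((((Nat.Prime.coprime_iff_not_dvd Nat.prime_five).2 h3).pow_left k).dvd_of_dvd_mul_right
        (((by norm_num : Nat.Coprime 5 3).pow k j).dvd_of_dvd_mul_left
          (((by norm_num : Nat.Coprime 5 2).pow k i).dvd_of_dvd_mul_left hk)))
  refine ⟨i, j, l, a, ⟨right_ne_zero_of_mul (right_ne_zero_of_mul (right_ne_zero_of_mul h0)),
    fun p hp hd => ?_⟩, rfl, ?_⟩
  · have a2 : p ≠ 2 := fun e => h1 (e ▸ (hd.mul_left _).mul_left _)
    have a3 : p ≠ 3 := fun e => h2 (e ▸ hd.mul_left _)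
    have a5 : p ≠ 5 := fun e => h3 (e ▸ hd)
    have a7 : 7 ≤ p := by
      by_contra hh
      have := hp.two_le
      obtain rfl | rfl : p = 4 ∨ p = 6 := by omega
      all_goals norm_num at hp
    exact ⟨a7, (((Nat.coprime_primes hp Nat.prime_five).2 a5).pow 4 l).dvd_of_dvd_mul_left
      ((((Nat.coprime_primes hp Nat.prime_three).2 a3).pow 4 j).dvd_of_dvd_mul_left
        ((((Nat.coprime_primes hp Nat.prime_two).2 a2).pow 4 i).dvd_of_dvd_mul_left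
          (h7 p hp a7 (((hd.mul_left _).mul_left _).mul_left _))))⟩
  · rcases Nat.eq_zero_or_pos l with rfl | hl
    · exact .inl (.inl (by simp))
    by_cases h4 : 4 ≤ l
    · exact .inl (.inr ⟨l - 4, by rw [Nat.add_sub_cancel' h4]⟩)
    rcases h5 ((((dvd_pow_self 5 hl.ne').mul_right a).mul_left _).mul_left _) with h6 | ⟨hf, h6⟩
    · exact absurd (k5 4 h6) h4
    · have h8 := k5 2 ((by norm_num : 5 ^ 2 ∣ 75).trans h6)
      refine .inr ⟨hf, Nat.pos_of_ne_zero ?_, ?_⟩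
      · rintro rfl
        rw [pow_zero, one_mul] at h6
        exact h2 (((by norm_num : Nat.Coprime 3 2).pow_right i).dvd_of_dvd_mul_left
          ((by norm_num : 3 ∣ 75).trans h6))
      · obtain rfl | rfl : l = 2 ∨ l = 3 := by omega
        all_goals simp

/-- `c = 2 ^ i * 3 ^ j * 5 ^ l * a` with `a` as in `bd_big`, and `l = 0`, or `l ≥ 4`, or
`l ∈ {2, 3}` and `j ≥ 1`.  Bound `2 * 1.5 * 1.002 * 1.005 + 2 * 0.5 * 0.048 * 1.005` minus
`1 + 1/2 + 1/3 + 1/4`. -/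
theorem num_main (f : Prop) (T : Finset ℕ) (h : ∀ c ∈ T, Ok f c ∧ 5 ≤ c) :
    ∑ c ∈ T, (1 / (c : ℝ)) < 1 := by
  have h1 := bd_comb (bd_geom (n := 2) le_rfl 0) (bd_geom (n := 3) (by norm_num) 0) bd_five
  have h2 := bd_comb (bd_geom (n := 2) le_rfl 0) (bd_geom (n := 3) (by norm_num) 1) (bd_finset {25, 125})
  refine (((h1.or h2).remove {1, 2, 3, 4} fun c hc => .inl ?_) T fun c hc => ⟨?_, ?_⟩).trans_lt
    (by norm_num)
  · simp only [Finset.mem_insert, Finset.mem_singleton] at hc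
    rcases hc with rfl | rfl | rfl | rfl
    exacts [⟨1, 1, 1, 1, ⟨0, rfl⟩, ⟨0, rfl⟩, .inl (by simp), big_one, rfl⟩,
      ⟨2, 1, 1, 1, ⟨1, rfl⟩, ⟨0, rfl⟩, .inl (by simp), big_one, rfl⟩,
      ⟨1, 3, 1, 1, ⟨0, rfl⟩, ⟨1, rfl⟩, .inl (by simp), big_one, rfl⟩,
      ⟨4, 1, 1, 1, ⟨2, rfl⟩, ⟨0, rfl⟩, .inl (by simp), big_one, rfl⟩]
  · obtain ⟨i, j, l, a, ha, e, hl⟩ := (h c hc).1.dec
    rcases hl with hl | ⟨-, hj, hl⟩
    · exact .inl ⟨_, _, _, a, ⟨i, by rw [zero_add]⟩, ⟨j, by rw [zero_add]⟩, hl, ha, e⟩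
    · exact .inr ⟨_, _, _, a, ⟨i, by rw [zero_add]⟩, ⟨j - 1, by rw [Nat.add_sub_cancel' hj]⟩, hl, ha, e⟩
  · have := (h c hc).2
    simp only [Finset.mem_insert, Finset.mem_singleton]
    omega

/-- Bound `1/3 + 1/12 + (2 * 1.002 * 1.005 - 1 - 1/2)`. -/
theorem num_three (f : Prop) (T : Finset ℕ) {n : ℕ} (hn : 12 ≤ n)
    (h : ∀ c ∈ T, c = 3 ∨ c = n ∨ (Ok f c ∧ 3 ≤ c ∧ ¬ 3 ∣ c)) : ∑ c ∈ T, (1 / (c : ℝ)) < 1 := by
  have h1 := (bd_comb (bd_geom (n := 2) le_rfl 0) (bd_finset {1}) bd_five).remove {1, 2} fun c hc => by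
    simp only [Finset.mem_insert, Finset.mem_singleton] at hc
    rcases hc with rfl | rfl
    exacts [⟨1, 1, 1, 1, ⟨0, rfl⟩, by simp, .inl (by simp), big_one, rfl⟩,
      ⟨2, 1, 1, 1, ⟨1, rfl⟩, by simp, .inl (by simp), big_one, rfl⟩]
  have h2 : (1 : ℝ) / n ≤ 1 / 12 := one_div_le_one_div_of_le (by norm_num) (by exact_mod_cast hn)
  refine (((bd_finset {3}).or ((bd_finset {n}).or h1)) T fun c hc => ?_).trans_lt ?_
  · rcases h c hc with rfl | rfl | ⟨h3, h4, h5⟩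
    · exact .inl (by simp)
    · exact .inr (.inl (by simp))
    · obtain ⟨i, j, l, a, ha, e, hl⟩ := h3.dec
      obtain rfl : j = 0 := by
        by_contra hj
        exact h5 (e ▸ ((dvd_pow_self 3 hj).mul_right _).mul_left _)
      refine .inr (.inr ⟨⟨_, _, _, a, ⟨i, by rw [zero_add]⟩, by simp, hl.resolve_right (by omega), ha, e⟩, ?_⟩)
      simp only [Finset.mem_insert, Finset.mem_singleton]
      omega
  · rw [Finset.sum_singleton (a := n)]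
    generalize (1 : ℝ) / n = r at h2
    norm_num
    linarith

/-- Bound `(15/8) * 1.5 * 1.002 * 1.005 - 1 - 1/2 - 1/3 = 0.9988..`. -/
theorem num_four (T : Finset ℕ) (h : ∀ c ∈ T, Ok False c ∧ 4 ≤ c ∧ ¬ 16 ∣ c) :
    ∑ c ∈ T, (1 / (c : ℝ)) < 1 := by
  have h1 := bd_comb (bd_finset {1, 2, 4, 8}) (bd_geom (n := 3) (by norm_num) 0) bd_five
  refine ((h1.remove {1, 2, 3} fun c hc => ?_) T fun c hc => ⟨?_, ?_⟩).trans_lt (by norm_num)
  · simp only [Finset.mem_insert, Finset.mem_singleton] at hc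
    rcases hc with rfl | rfl | rfl
    exacts [⟨1, 1, 1, 1, by simp, ⟨0, rfl⟩, .inl (by simp), big_one, rfl⟩,
      ⟨2, 1, 1, 1, by simp, ⟨0, rfl⟩, .inl (by simp), big_one, rfl⟩,
      ⟨1, 3, 1, 1, by simp, ⟨1, rfl⟩, .inl (by simp), big_one, rfl⟩]
  · obtain ⟨i, j, l, a, ha, e, hl⟩ := (h c hc).1.dec
    refine ⟨_, _, _, a, ?_, ⟨j, by rw [zero_add]⟩, hl.resolve_right fun h => h.1, ha, e⟩
    have : i < 4 := by
      by_contra hi
      exact (h c hc).2.2 (e ▸ (pow_dvd_pow 2 (not_lt.1 hi)).mul_right _)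
    interval_cases i <;> simp
  · have := (h c hc).2.1
    simp only [Finset.mem_insert, Finset.mem_singleton]
    omega

end Cfsg.Lib.AH
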