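import Cfsg.Agent.Lib.AH.Y

/-!
# The plane case
-/

set_option autoImplicit false

namespace Cfsg.Lib.AH

open Subgroup

variable {G : Type*} [Group G] [Finite G] {p : ℕ} {P Z : Subgroup G} {k : G} {τ : G → ℕ}

omit [Finite G] in
theorem pln_mem {H : Subgroup G} {d : G} {a b : ℕ} (hab : a.Coprime b) (ha : d ^ a ∈ H) (hb : d ^ b ∈ H) :
    d ∈ H := by
  have h1 : d = (d ^ a) ^ a.gcdA b * (d ^ b) ^ a.gcdB b := by
    rw [← zpow_natCast, ← zpow_natCast, ← zpow_mul, ← zpow_mul, ← zpow_add, ← Nat.gcd_eq_gcd_ab, hab]; simp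
  rw [h1]
  exact H.mul_mem (H.zpow_mem ha _) (H.zpow_mem hb _)

omit [Finite G] in
theorem Bt.comm (h : Bt p P k Z) {a b : G} (ha : a ∈ Z) (hb : b ∈ Z) : a * b = b * a :=
  h.cen (h.le hb) a ha

omit [Finite G] in
theorem Bt.cj (h : Bt p P k Z) {d w : G} (hd : d ∈ centralizer ({k} : Set G)) (hw : w ∈ Z) : d * w * d⁻¹ ∈ Z :=
  (mem_normalizer_iff.1 (h.norm hd) w).1 hw

omit [Finite G] in
theorem Bt.ord (h : Bt p P k Z) (hp : p.Prime) {z : G} (hz : z ∈ Z) (h1 : z ≠ 1) : orderOf z = p :=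
  have := Fact.mk hp
  orderOf_eq_prime (h.exp z hz) h1

/-- Semiregularity.  `f` = conjugation by `d` on the abelian group `Z`.  `f z = z` gives
`z ^ τ d = z ^ 2`, so `f w * f⁻¹ w = w ^ 2` for all `w` (all orders are `p`); `δ = f w * w⁻¹` is
fixed by `f`, so `f ^ n w = w δ ^ n` and `d ^ p` centralizes `Z`.  Also
`d ^ P.index ∈ P ⊓ C(k) ≤ C(Z)` (`pow_index_mem`), and `p`, `P.index` are coprime. -/
theorem Bt.semi [P.Normal] (h : Bt p P k Z) (hp : p.Prime) (hi : ¬ p ∣ P.index)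
    (hτ : Pl (centralizer {k}) Z (Nat.card G) τ) {d z : G} (hd : d ∈ centralizer ({k} : Set G))
    (hz : z ∈ Z) (h1 : z ≠ 1) (hf : d * z * d⁻¹ = z) : d ∈ centralizer (Z : Set G) := by
  have h2 : d⁻¹ * z * d = z := by conv_lhs => rw [← hf]
                                  group
  have h3 := hτ.ch d hd z hz
  rw [hf, h2, ← sq, pow_eq_pow_iff_modEq, h.ord hp hz h1] at h3
  refine pln_mem (hp.coprime_iff_not_dvd.2 hi) (fun w hw => ?_) (h.cen ⟨P.pow_index_mem d, pow_mem hd _⟩)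
  have h4 := hτ.ch d hd w hw
  rw [← pow_eq_pow_of_modEq h3 (h.exp w hw), sq] at h4
  have hδ := Z.mul_mem (h.cj hd hw) (Z.inv_mem hw)
  have h5 : d * (d * w * d⁻¹ * w⁻¹) * d⁻¹ = d * w * d⁻¹ * w⁻¹ := by
    have h6 : d⁻¹ * (d * w * d⁻¹ * w⁻¹) * d = w * (d⁻¹ * w * d)⁻¹ := by group
    rw [eq_inv_mul_of_mul_eq h4, mul_inv_rev, inv_inv, mul_inv_rev, mul_assoc w⁻¹, mul_inv_cancel_left,
      h.comm (Z.inv_mem hw) (h.cj hd hw)] at h6
    conv_lhs => rw [← h6]
    group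
  have h6 : ∀ n : ℕ, d ^ n * w * (d ^ n)⁻¹ = (d * w * d⁻¹ * w⁻¹) ^ n * w := fun n => by
    induction n with
    | zero => simp
    | succ n ih =>
      have : d ^ (n + 1) * w * (d ^ (n + 1))⁻¹ = d * (d ^ n * w * (d ^ n)⁻¹) * d⁻¹ := by group
      rw [this, ih, pow_succ, mul_assoc (_ ^ n), inv_mul_cancel_right]
      conv_rhs => rw [← h5, conj_pow]
      group
  have h7 := h6 p
  rw [h.exp _ hδ, one_mul] at h7
  exact (mul_inv_eq_iff_eq_mul.1 h7).symm

/-- `f` = conjugation by `d`, `g = f ^ m`.  From `g w * g⁻¹ w = f w * f⁻¹ w` applied to all `w`: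
`u = g w * (f⁻¹ w)⁻¹` has `g u = f u`; if `d⁻¹ * d ^ m` does not centralize `Z` then `u = 1` by
`semi`. -/
theorem Bt.pow_cases [P.Normal] (h : Bt p P k Z) (hp : p.Prime) (hi : ¬ p ∣ P.index)
    (hτ : Pl (centralizer {k}) Z (Nat.card G) τ) {d : G} (hd : d ∈ centralizer ({k} : Set G))
    {m : ℕ} (hm : m.Coprime (Nat.card G)) :
    d⁻¹ * d ^ m ∈ centralizer (Z : Set G) ∨ d * d ^ m ∈ centralizer (Z : Set G) := by
  have he := pow_mem hd m
  have hc : Commute d (d ^ m) := (Commute.refl d).pow_right m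
  generalize hE : d ^ m = e at he hc ⊢
  have h1 : ∀ w ∈ Z, e * w * e⁻¹ * (e⁻¹ * w * e) = d * w * d⁻¹ * (d⁻¹ * w * d) := fun w hw => by
    rw [hτ.ch e he w hw, hτ.ch d hd w hw, ← hE, hτ.rat d hd m hm w hw]
  by_cases h2 : ∀ w ∈ Z, e * w * e⁻¹ * (d⁻¹ * w * d)⁻¹ = 1
  · refine .inr fun w hw => ?_
    have h3 := mul_inv_eq_one.1 (h2 w hw)
    calc w * (d * e) = d * (d⁻¹ * w * d) * e := by group
      _ = d * e * w := by rw [← h3]; group
  · push Not at h2
    obtain ⟨w, hw, h3⟩ := h2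
    have h4 : d⁻¹ * w * d ∈ Z := by simpa using h.cj (inv_mem hd) hw
    refine .inl (h.semi hp hi hτ (mul_mem (inv_mem hd) he) (mul_mem (h.cj he hw) (inv_mem h4)) h3 ?_)
    have h5 := h1 _ (h.cj he hw)
    have h6 : e * (d⁻¹ * w * d) * e⁻¹ = d⁻¹ * (e * w * e⁻¹) * d := by
      rw [← mul_assoc, ← mul_assoc, ← hc.inv_left.eq, mul_assoc _ d, hc.inv_right.eq]; group
    have h7 : e⁻¹ * (e * w * e⁻¹) * e = w := by group
    rw [h7, ← h6] at h5
    have h8 : e * (e * w * e⁻¹) * e⁻¹ * (e * (d⁻¹ * w * d) * e⁻¹)⁻¹ = d * (e * w * e⁻¹) * d⁻¹ * w⁻¹ := by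
      rw [eq_mul_inv_of_mul_eq h5, mul_assoc (d * (e * w * e⁻¹) * d⁻¹), h.comm (h.cj he h4) (inv_mem hw),
        ← mul_assoc, mul_inv_cancel_right]
    calc _ = d⁻¹ * (e * (e * w * e⁻¹) * e⁻¹ * (e * (d⁻¹ * w * d) * e⁻¹)⁻¹) * d := by group
      _ = _ := by rw [h8]; group

/-- `C(k z) = C(k) ⊓ C(z) = C(k) ⊓ C(Z)` (`centralizer_mul`, `semi`) does not depend on `z ≠ 1`;
`AH` and `conj_split`. -/
theorem Bt.trans [P.Normal] (h : Bt p P k Z) (hA : AH G) (hp : p.Prime) (hi : ¬ p ∣ P.index)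
    (hk : ¬ p ∣ orderOf k) (hτ : Pl (centralizer {k}) Z (Nat.card G) τ) {z z' : G} (hz : z ∈ Z)
    (h1 : z ≠ 1) (hz' : z' ∈ Z) (h1' : z' ≠ 1) :
    ∃ d ∈ centralizer ({k} : Set G), d * z * d⁻¹ = z' := by
  have hco : (orderOf k).Coprime p := (hp.coprime_iff_not_dvd.2 hk).symm
  have hcm : ∀ z ∈ Z, Commute k z := fun z hz => (h.le hz).2 k rfl
  have h2 : ∀ z ∈ Z, z ≠ 1 → centralizer ({k * z} : Set G) = centralizer {k} ⊓ centralizer (Z : Set G) :=
    fun z hz h1 => by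
      rw [centralizer_mul (hcm z hz) (by rwa [h.ord hp hz h1])]
      exact le_antisymm (fun d hd => ⟨hd.1, h.semi hp hi hτ hd.1 hz h1
        (mul_inv_eq_iff_eq_mul.2 (hd.2 z rfl).symm)⟩)
        (inf_le_inf_left _ (centralizer_le (Set.singleton_subset_iff.2 hz)))
  obtain ⟨g, hg⟩ := isConj_iff.1 (hA (k * z) (k * z') (by rw [cz, cz, h2 z hz h1, h2 z' hz' h1']))
  obtain ⟨h3, h4⟩ := conj_split hco (pow_orderOf_eq_one k) (pow_orderOf_eq_one k) (h.exp z hz) (h.exp z' hz')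
    (hcm z hz) (hcm z' hz') hg
  exact ⟨g, mem_centralizer_singleton_iff.2 (mul_inv_eq_iff_eq_mul.1 h3), h4⟩

/-- Let `D = C(k)`, `φ : D →* MulAut Z` the conjugation action (`normalizerMonoidHom`),
`Y = φ.range`.  `Y` is regular on `Z \ 1` (`semi`, `trans`), so `|Y| = p ^ 2 - 1`.  An involution
of `Y` inverts `Z` (`f w * w` is fixed), so there is at most one.  By `pow_cases` and
`even_dvd_le` no element of `Y` has order `8` or `12`; for a primitive root `l` mod `p`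
(`IsCyclic (ZMod p)ˣ`) an element with `z ↦ z ^ l` has order divisible by `p - 1`, so `p - 1 ≤ 6`;
`p = 7` contradicts `y16` (`16 ∣ 48`).  So `p = 5`, `|Y| = 24`, `y24` applies.
If `3 ∤ orderOf k`, lift an element of order `3` of `Y` to a `3`-element `d` of `D`
(`exists_parts`); `RatIn.two` inverts `d` inside `D`, against `y24`.
If `16 ∤ |G|`: `|D| = 24 |ker φ|`, so `ker φ` has odd order and lies in `X` (index `2`), `D ≰ X`
(`8 ∣ |D|`, `2 |X| = |G|`), and the image of `D ⊓ X` has index `2` in `Y`, against `y24`. -/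
theorem Bt.pln [P.Normal] (h : Bt p P k Z) (hA : AH G) (hp : p.Prime) (h5 : 5 ≤ p)
    (hi : ¬ p ∣ P.index) (hk : ¬ p ∣ orderOf k) (hc : Nat.card Z = p ^ 2)
    (hτ : Pl (centralizer {k}) Z (Nat.card G) τ) (h2 : ∃ X : Subgroup G, X.index = 2) :
    p = 5 ∧ 3 ∣ orderOf k ∧ 16 ∣ Nat.card G := by
  have := Fact.mk hp
  let φ : centralizer ({k} : Set G) →* MulAut Z := Z.normalizerMonoidHom.comp (inclusion h.norm)
  let ψ := φ.rangeRestrict
  have hs : Function.Surjective ψ := φ.rangeRestrict_surjective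
  have hψ : ∀ d (w : Z), ((ψ d).1 w : G) = d * w * d⁻¹ := fun d w => rfl
  have h0 : ∀ d, d.1 ∈ centralizer (Z : Set G) → ψ d = 1 := fun d hd =>
    Subtype.ext (MulEquiv.ext fun w => Subtype.ext (by rw [hψ, ← hd w w.2]; simp))
  have hsm : ∀ (y : φ.range) (z : Z), z ≠ 1 → y.1 z = z → y = 1 := fun y z h1 h3 => by
    obtain ⟨d, rfl⟩ := hs y
    exact h0 d (h.semi hp hi hτ d.2 z.2 (by simpa using h1) (congrArg Subtype.val h3))
  have htr : ∀ z z' : Z, z ≠ 1 → z' ≠ 1 → ∃ y : φ.range, y.1 z = z' := fun z z' h1 h1' => by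
    obtain ⟨d, hd, e⟩ := h.trans hA hp hi hk hτ z.2 (by simpa using h1) z'.2 (by simpa using h1')
    exact ⟨ψ ⟨d, hd⟩, Subtype.ext e⟩
  have : Nontrivial Z := Finite.one_lt_card_iff_nontrivial.1 (by rw [hc]; nlinarith)
  obtain ⟨z, hz⟩ := exists_ne (1 : Z)
  have hY : Nat.card φ.range = p ^ 2 - 1 := by
    classical
    have := Fintype.ofFinite Z
    rw [Nat.card_eq_of_bijective (fun y : φ.range => (⟨y.1 z, by simpa using hz⟩ : {w : Z // ¬ w = 1}))
      ⟨fun a b e => ?_, fun w => (htr z w hz w.2).imp fun _ => Subtype.ext⟩, ← hc, Nat.card_eq_fintype_card,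
      Fintype.card_subtype_compl, Nat.card_eq_fintype_card, Fintype.card_subtype_eq]
    have e' : a.1 z = b.1 z := congrArg Subtype.val e
    exact (inv_mul_eq_one.1 (hsm (a⁻¹ * b) z hz (by simp [← e'])))
  have hinv : ∀ y : φ.range, y ≠ 1 → y ^ 2 = 1 → ∀ w, y.1 w = w⁻¹ := fun y h1 h3 w => by
    have h4 : y.1 (y.1 w) = w := by
      rw [← MulAut.mul_apply, ← coe_mul, ← sq, h3]; rfl
    refine eq_inv_of_mul_eq_one_left (of_not_not fun e => h1 (hsm y _ e ?_))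
    rw [map_mul, h4]
    exact Subtype.ext (h.comm w.2 (y.1 w).2)
  have hi2 : ∀ a b : φ.range, a ≠ 1 → b ≠ 1 → a ^ 2 = 1 → b ^ 2 = 1 → a = b := fun a b ha hb ha' hb' =>
    Subtype.ext (MulEquiv.ext fun w => (hinv a ha ha' w).trans (hinv b hb hb' w).symm)
  have hev : ∀ (y : φ.range) (n : ℕ), n ∣ orderOf y → Even n → n ≤ 6 := fun y n h1 h3 => by
    obtain ⟨d, rfl⟩ := hs y
    refine even_dvd_le (N := Nat.card G) Nat.card_pos.ne' ((orderOf_map_dvd ψ d).trans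
      ((orderOf_dvd_natCard d).trans (card_subgroup_dvd_card _))) (fun m hm => ?_) h1 h3
    refine (h.pow_cases hp hi hτ d.2 hm).imp (fun e => ?_) fun e => ?_
    · exact (inv_mul_eq_one.1 (by simpa using h0 (d⁻¹ * d ^ m) e)).symm
    · exact eq_inv_of_mul_eq_one_right (by simpa using h0 (d * d ^ m) e)
  have hp5 : p = 5 := by
    obtain ⟨g, hg⟩ := IsCyclic.exists_ofOrder_eq_natCard (α := (ZMod p)ˣ)
    rw [Nat.card_eq_fintype_card, ZMod.card_units] at hg
    have ho : orderOf z = p := by rw [← orderOf_coe, h.ord hp z.2 (by simpa using hz)]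
    obtain ⟨y, hy⟩ := htr z (z ^ (g : ZMod p).val) hz fun e => by
      rw [← orderOf_dvd_iff_pow_eq_one, ho, ← ZMod.natCast_eq_zero_iff, ZMod.natCast_zmod_val] at e
      exact g.ne_zero e
    have h3 : ∀ n : ℕ, (y ^ n).1 z = z ^ (g : ZMod p).val ^ n := fun n => by
      induction n with
      | zero => simp
      | succ n ih => rw [pow_succ, coe_mul, MulAut.mul_apply, hy, map_pow, ih, ← pow_mul, pow_succ]
    have h4 := h3 (orderOf y)
    rw [pow_orderOf_eq_one] at h4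
    have h6 : z ^ 1 = z ^ (g : ZMod p).val ^ orderOf y := by rw [pow_one]; exact h4
    rw [pow_eq_pow_iff_modEq, ho, ← ZMod.natCast_eq_natCast_iff] at h6
    have h7 : g ^ orderOf y = 1 := Units.ext (by simpa using h6.symm)
    have h8 := hev y _ (hg ▸ orderOf_dvd_of_pow_eq_one h7) (hp.even_sub_one (by omega))
    obtain rfl | rfl | rfl : p = 5 ∨ p = 6 ∨ p = 7 := by omega
    · rfl
    · exact absurd hp (by norm_num)
    · exact absurd (hY ▸ by norm_num) (y16 hi2 fun y e => by have := hev y 8 (e ▸ dvd_rfl) (by decide); omega)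
  subst hp5
  obtain ⟨h3, h4⟩ := y24 hY hi2 fun y e => by have := hev y 12 (e ▸ dvd_rfl) (by decide); omega
  refine ⟨rfl, of_not_not fun h6 => ?_, of_not_not fun h6 => ?_⟩
  · obtain ⟨y, hy⟩ := exists_prime_orderOf_dvd_card' (G := φ.range) 3 (hY ▸ by norm_num)
    obtain ⟨d, rfl⟩ := hs y
    obtain ⟨a, l, e, -, ha, ⟨j, hl⟩, ha', -⟩ := exists_parts Nat.prime_three d
    have h7 : ψ a = 1 := by
      obtain ⟨i, rfl⟩ := ha'
      refine orderOf_eq_one_iff.1 (Nat.eq_one_of_dvd_coprimes (Nat.prime_three.coprime_iff_not_dvd.2 ha) ?_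
        (orderOf_map_dvd ψ _))
      rw [map_zpow, ← hy]
      exact orderOf_dvd_of_mem_zpowers ⟨i, rfl⟩
    rw [e, map_mul, h7, one_mul] at hy
    have h8 : orderOf l.1 ∣ 3 ^ j := orderOf_dvd_of_pow_eq_one (congrArg Subtype.val hl)
    obtain ⟨g, -, g1, g2⟩ := hA.rat.two (mem_top l.1) (mem_top k) (l.2 k rfl).symm
      (((Nat.prime_three.coprime_iff_not_dvd.2 h6).pow_left j).coprime_dvd_left h8) (m := 2)
      (((by norm_num : Nat.Coprime 2 3).pow_right j).coprime_dvd_right h8)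
    let g' : centralizer ({k} : Set G) := ⟨g, mem_centralizer_singleton_iff.2 (mul_inv_eq_iff_eq_mul.1 g2)⟩
    refine h3 _ hy (isConj_iff.2 ⟨ψ g', ?_⟩)
    rw [← map_inv ψ g', ← map_mul, ← map_mul, show g' * l * g'⁻¹ = l ^ 2 from Subtype.ext g1, map_pow,
      eq_inv_iff_mul_eq_one, ← pow_succ, ← show orderOf (ψ l) = 2 + 1 from hy, pow_orderOf_eq_one]
  · obtain ⟨X, hX⟩ := h2
    have := X.normal_of_index_eq_two hX
    have h7 : Nat.card ψ.ker * 24 = Nat.card (centralizer ({k} : Set G)) := by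
      rw [← ψ.ker.card_mul_index, index_ker, MonoidHom.range_eq_top.2 hs, card_top, hY]; rfl
    have h8 := card_subgroup_dvd_card (centralizer ({k} : Set G))
    refine h4 ((X.subgroupOf (centralizer {k})).map ψ) ?_
    rw [index_map_eq _ hs fun x hx => ?_]
    · refine (Nat.prime_two.eq_one_or_self_of_dvd _ (hX ▸ relIndex_dvd_index_of_normal X _)).resolve_left fun e => ?_
      have h9 := card_dvd_of_le (relIndex_eq_one.1 e)
      have h10 := X.card_mul_index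
      rw [hX] at h10
      have h11 := (Dvd.intro_left _ h7).trans h9
      omega
    · refine pln_mem (a := 2) (b := Nat.card ψ.ker) ?_ (hX ▸ X.pow_index_mem x.1) ?_
      · refine Nat.prime_two.coprime_iff_not_dvd.2 fun h9 => h6 (Dvd.dvd.trans ?_ h8)
        omega
      · rw [show x ^ Nat.card ψ.ker = 1 from congrArg Subtype.val (pow_card_eq_one' (x := (⟨x, hx⟩ : ψ.ker)))]
        exact one_mem _

end Cfsg.Lib.AH
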