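import Cfsg.Agent.Lib.AH.Bas
import Cfsg.Agent.Lib.FGS.Taussky
import Cfsg.Agent.Lib.FGS.Classes

/-!
# Centralizers of order `2`, `3`, `4`
-/

set_option autoImplicit false

namespace Cfsg.Lib.AH

open Subgroup

variable {G : Type*} [Group G] [Finite G]

theorem sm_cz_mul (x : G) : cz x * {y | IsConj x y}.ncard = Nat.card G := by
  rw [FGS.ncard_isConj]; exact card_mul_index _

theorem sm_mem {x g : G} : g ∈ centralizer ({x} : Set G) ↔ g * x * g⁻¹ = x := by
  rw [mem_centralizer_singleton_iff, mul_inv_eq_iff_eq_mul]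

theorem sm_cz_conj {x y : G} (h : IsConj x y) : cz y = cz x := FGS.card_cent1_of_isConj h

theorem sm_prime {p : ℕ} (hp : p.Prime) {x : G} (hx : cz x = p) (h1 : x ≠ 1) :
    orderOf x = p ∧ centralizer ({x} : Set G) = zpowers x := by
  have h2 : orderOf x = p :=
    ((Nat.dvd_prime hp).1 (hx ▸ orderOf_dvd_cz x)).resolve_left fun h => h1 (orderOf_eq_one_iff.1 h)
  refine ⟨h2, (eq_of_le_of_card_ge (zpowers_le.2 (mem_centralizer_singleton_iff.2 rfl)) ?_).symm⟩
  rw [Nat.card_zpowers, h2]; exact hx.le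

theorem sm_one (hA : AH G) {x : G} (hx : cz x = Nat.card G) : x = 1 :=
  isConj_one_right.1 (hA 1 x (cz_one.trans hx.symm))

/-- `x ≠ 1` (else `|G| = 2` and the other element is conjugate to `1`), the class of `x` has
`|G| / 2 = |X|` elements.  `x ∉ X` (else the class lies in `X \ 1`), so the class is `G \ X`, all
`h x` (`h ∈ X`) are involutions and `x` inverts `X`, which is abelian.  `h ∈ X \ 1` is not
centralized by `x`, so `C(h) = X`, all such `h` are conjugate, `X \ 1 = {h, h⁻¹}`; `X ≠ 1`;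
`h ≠ h⁻¹`; so `|G| = 6`.  The action on the `3` cosets of `zpowers x` is faithful (`zpowers x` is
not normal), so `G ≃* Perm (G ⧸ zpowers x) ≃* Perm (Fin 3)`. -/
theorem sm_two (hA : AH G) (h2 : ∃ X : Subgroup G, X.index = 2) {x : G} (hx : cz x = 2) :
    Nonempty (G ≃* Equiv.Perm (Fin 3)) := by
  obtain ⟨X, hX⟩ := h2
  haveI : X.Normal := normal_of_index_eq_two hX
  have hc := X.card_mul_index
  rw [hX] at hc
  have hG2 : Nat.card G ≠ 2 := fun h => by
    haveI : Nontrivial G := Finite.one_lt_card_iff_nontrivial.1 (by omega)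
    obtain ⟨y, hy⟩ := exists_ne (1 : G)
    exact hy (sm_one hA (le_antisymm (Nat.le_of_dvd Nat.card_pos (cz_dvd y)) (h ▸ two_le_cz y)))
  have x1 : x ≠ 1 := fun h => hG2 (by rw [← cz_one, ← h, hx])
  obtain ⟨ho, hC⟩ := sm_prime Nat.prime_two hx x1
  have xx : x * x = 1 := by rw [← pow_two, ← ho, pow_orderOf_eq_one]
  have hz : ∀ g ∈ zpowers x, g = 1 ∨ g = x := fun g hg => by
    obtain ⟨k, rfl⟩ := mem_zpowers_iff.1 hg
    rw [← zpow_mod_orderOf, ho]
    rcases Int.emod_two_eq_zero_or_one k with h | h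
    · left; simp [h]
    · right; simp [h]
  have hC' : ∀ g : G, g * x * g⁻¹ = x → g = 1 ∨ g = x := fun g hg => hz g (hC ▸ sm_mem.2 hg)
  have xX : x ∉ X := fun h => by
    have h1 := sm_cz_mul x
    have h3 : {y | IsConj x y} ⊆ (X : Set G) \ {1} := fun y hy => by
      obtain ⟨g, rfl⟩ := isConj_iff.1 hy
      exact ⟨Normal.conj_mem inferInstance x h g, fun h4 => x1 (by simpa using h4)⟩
    have h4 := Set.ncard_le_ncard h3
    rw [Set.ncard_diff_singleton_of_mem X.one_mem, ← Nat.card_coe_set_eq (X : Set G)] at h4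
    have h5 : 0 < Nat.card X := Nat.card_pos
    change _ ≤ Nat.card X - 1 at h4
    rw [hx] at h1
    omega
  have hCX : ∀ g ∈ X, g * x * g⁻¹ = x → g = 1 := fun g hg h =>
    (hC' g h).resolve_right fun h1 => xX (h1 ▸ hg)
  have hxi : x⁻¹ = x := inv_eq_of_mul_eq_one_right xx
  have hinv : ∀ y ∈ X, x * y * x⁻¹ = y⁻¹ := fun y hy => by
    let f : X → X := fun h => ⟨h * (x * (h : G)⁻¹ * x⁻¹), X.mul_mem h.2
      (Normal.conj_mem inferInstance _ (X.inv_mem h.2) x)⟩
    have hf : Function.Injective f := fun a b h => by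
      have h1 : (a : G) * (x * (a : G)⁻¹ * x⁻¹) = b * (x * (b : G)⁻¹ * x⁻¹) := congrArg Subtype.val h
      have h2 := hCX ((b : G)⁻¹ * a) (X.mul_mem (X.inv_mem b.2) a.2) (by
        calc (b : G)⁻¹ * a * x * ((b : G)⁻¹ * a)⁻¹
            = (b : G)⁻¹ * ((a : G) * (x * (a : G)⁻¹ * x⁻¹)) * x * b := by group
          _ = x := by rw [h1]; group)
      exact Subtype.ext (inv_mul_eq_one.1 h2).symm
    obtain ⟨h, hh⟩ := Finite.surjective_of_injective hf ⟨y, hy⟩
    have h1 : (h : G) * (x * (h : G)⁻¹ * x⁻¹) = y := congrArg Subtype.val hh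
    rw [← h1]
    calc x * ((h : G) * (x * (h : G)⁻¹ * x⁻¹)) * x⁻¹ = x * h * x * (h : G)⁻¹ * (x * x)⁻¹ := by group
      _ = x * h * x⁻¹ * (h : G)⁻¹ := by rw [xx, hxi]; group
      _ = _ := by group
  have hcom : ∀ a ∈ X, ∀ b ∈ X, a * b = b * a := fun a ha b hb => by
    have h1 := hinv _ (X.mul_mem ha hb)
    have h2 : x * (a * b) * x⁻¹ = (x * a * x⁻¹) * (x * b * x⁻¹) := by group
    rw [h2, hinv a ha, hinv b hb, ← mul_inv_rev, inv_inj] at h1
    exact h1.symm
  have hout : ∀ g ∉ X, g * x⁻¹ ∈ X := fun g hg =>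
    (mul_mem_iff_of_index_two hX).2 (by simp [hg, xX])
  have hni : ∀ h ∈ X, h ≠ 1 → h⁻¹ ≠ h := fun h hh h1 h2 => h1 (hCX h hh (by
    have h3 := hinv h hh
    rw [h2, mul_inv_eq_iff_eq_mul] at h3
    rw [← h3, mul_inv_cancel_right]))
  have hcj : ∀ h ∈ X, ∀ g : G, (g ∈ X → g * h * g⁻¹ = h) ∧ (g ∉ X → g * h * g⁻¹ = h⁻¹) :=
    fun h hh g => ⟨fun hg => by rw [hcom g hg h hh, mul_inv_cancel_right], fun hg => by
      have h1 : g * h * g⁻¹ = (g * x⁻¹) * (x * h * x⁻¹) * (g * x⁻¹)⁻¹ := by group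
      rw [h1, hinv h hh, hcom _ (hout g hg) _ (X.inv_mem hh), mul_inv_cancel_right]⟩
  have hcz : ∀ h ∈ X, h ≠ 1 → cz h = Nat.card X := fun h hh h1 => by
    have : centralizer ({h} : Set G) = X := by
      ext g
      rw [sm_mem]
      exact ⟨fun h2 => by_contra fun h3 => hni h hh h1 (((hcj h hh g).2 h3).symm.trans h2),
        (hcj h hh g).1⟩
    rw [cz, this]
  have hX1 : X ≠ ⊥ := fun h => hG2 (by rw [← hc, h, card_bot])
  obtain ⟨⟨h, hh⟩, h1⟩ := (ne_bot_iff_exists_ne_one).1 hX1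
  have h1' : h ≠ 1 := fun h2 => h1 (Subtype.ext h2)
  have hset : (X : Set G) = {1, h, h⁻¹} := by
    ext k
    simp only [SetLike.mem_coe, Set.mem_insert_iff, Set.mem_singleton_iff]
    refine ⟨fun hk => ?_, ?_⟩
    · by_cases k1 : k = 1
      · exact Or.inl k1
      obtain ⟨g, rfl⟩ := isConj_iff.1 (hA h k ((hcz h hh h1').trans (hcz k hk k1).symm))
      by_cases hg : g ∈ X
      · exact Or.inr (Or.inl ((hcj h hh g).1 hg))
      · exact Or.inr (Or.inr ((hcj h hh g).2 hg))
    · rintro (rfl | rfl | rfl)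
      exacts [X.one_mem, hh, X.inv_mem hh]
  have h3 : Nat.card X = 3 := by
    rw [← SetLike.coe_sort_coe, Nat.card_coe_set_eq, hset]
    exact Set.ncard_eq_three.2 ⟨1, h, h⁻¹, h1'.symm, fun h2 => h1' (inv_eq_one.1 h2.symm),
      (hni h hh h1').symm, rfl⟩
  have hi := (zpowers x).card_mul_index
  rw [Nat.card_zpowers, ho, index_eq_card] at hi
  have hq : Nat.card (G ⧸ zpowers x) = 3 := by omega
  have hinj : Function.Injective (MulAction.toPermHom G (G ⧸ zpowers x)) := by
    rw [← MonoidHom.ker_eq_bot_iff, ← normalCore_eq_ker, eq_bot_iff]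
    intro g hg
    rcases hz g (normalCore_le _ hg) with h4 | h4
    · exact h4
    · subst h4
      rcases hz _ (hg h) with h5 | h5
      · exact absurd (by simpa using h5) x1
      · exact absurd (hCX h hh h5) h1'
  classical
  have hb : Function.Bijective (MulAction.toPermHom G (G ⧸ zpowers x)) :=
    hinj.bijective_of_nat_card_le (by rw [Nat.card_perm, hq, ← hc, h3]; decide)
  exact ⟨(MulEquiv.ofBijective _ hb).trans (Finite.equivFinOfCardEq hq).permCongrHom⟩

/-- `x ≠ 1` as `|G|` is even; `C(x) = zpowers x` has order `3`; a Sylow `3`-subgroup `R ∋ x` has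
`1 ≠ Z(R) ≤ C(x)`, so `R = zpowers x`.  If `3 ∣ cz g`, an element `y ∈ C(g)` of order `3`
generates a conjugate of `R`, so `C(y) = zpowers y ∋ g`.  `6 ∣ |G|`; if `|G| = 6` an involution `t`
has `cz t ∈ {2, 6}`, and `cz t = 6 = cz 1` is impossible. -/
theorem sm_three (hA : AH G) (he : 2 ∣ Nat.card G) (hno : ∀ y : G, cz y ≠ 2) {x : G}
    (hx : cz x = 3) : 12 ≤ Nat.card G ∧ ∀ g : G, 3 ∣ cz g → cz g = 3 ∨ cz g = Nat.card G := by
  haveI : Fact (Nat.Prime 3) := ⟨Nat.prime_three⟩
  have hz : ∀ y : G, cz y = 3 → ∀ z ∈ zpowers y, z ≠ 1 →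
      centralizer ({z} : Set G) = centralizer {y} := fun y hy z hz z1 => by
    have y1 : y ≠ 1 := by
      rintro rfl
      exact z1 (by simpa using hz)
    have ho := (sm_prime Nat.prime_three hy y1).1
    have h1 : zpowers z = zpowers y := by
      refine eq_of_le_of_card_ge (zpowers_le.2 hz) ?_
      have h2 := card_dvd_of_le (zpowers_le.2 hz)
      rw [Nat.card_zpowers, Nat.card_zpowers, ho] at h2 ⊢
      exact (((Nat.dvd_prime Nat.prime_three).1 h2).resolve_left
        fun h => z1 (orderOf_eq_one_iff.1 h)).ge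
    rw [← centralizer_closure, ← zpowers_eq_closure, h1, zpowers_eq_closure, centralizer_closure]
  have x1 : x ≠ 1 := fun h => by
    rw [h, cz_one] at hx
    omega
  obtain ⟨ho, hC⟩ := sm_prime Nat.prime_three hx x1
  have hp : ∀ y : G, orderOf y = 3 → IsPGroup 3 (zpowers y) := fun y hy =>
    IsPGroup.of_card (n := 1) (by rw [Nat.card_zpowers, hy, pow_one])
  obtain ⟨R, hR⟩ := (hp x ho).exists_le_sylow
  have hRx : (R : Subgroup G) ≤ zpowers x := by
    have hx' : x ∈ (R : Subgroup G) := hR (mem_zpowers x)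
    haveI : Nontrivial (R : Subgroup G) := ⟨⟨⟨x, hx'⟩, 1, fun h => x1 (congrArg Subtype.val h)⟩⟩
    haveI := R.isPGroup'.center_nontrivial
    obtain ⟨⟨z, hzc⟩, z1⟩ := exists_ne (1 : center (R : Subgroup G))
    have z1' : (z : G) ≠ 1 := fun h => z1 (Subtype.ext (Subtype.ext h))
    have hc : ∀ r ∈ (R : Subgroup G), r * z = z * r := fun r hr =>
      congrArg Subtype.val (mem_center_iff.1 hzc ⟨r, hr⟩)
    have h1 : (z : G) ∈ zpowers x := hC ▸ mem_centralizer_singleton_iff.2 (hc x hx').symm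
    intro r hr
    rw [← hC, ← hz x hx z h1 z1']
    exact mem_centralizer_singleton_iff.2 (hc r hr)
  have h3 : ∀ y : G, orderOf y = 3 → cz y = 3 := fun y hy => by
    obtain ⟨R', hR'⟩ := (hp y hy).exists_le_sylow
    obtain ⟨g, rfl⟩ := MulAction.exists_smul_eq G R R'
    have h1 := hR' (mem_zpowers y)
    rw [Sylow.coe_subgroup_smul, mem_pointwise_smul_iff_inv_smul_mem] at h1
    have h2 : g⁻¹ * y * g⁻¹⁻¹ ∈ zpowers x := hRx (by simpa using h1)
    have y1 : y ≠ 1 := fun h => by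
      rw [h, orderOf_one] at hy
      omega
    rw [← sm_cz_conj (isConj_iff.2 ⟨g⁻¹, rfl⟩), cz, hz x hx _ h2 fun h => y1 (conj_eq_one_iff.1 h)]
    exact hx
  refine ⟨?_, fun g hg => ?_⟩
  · have h4 : 3 ∣ Nat.card G := hx ▸ cz_dvd x
    have h5 : 0 < Nat.card G := Nat.card_pos
    by_contra h6
    have h7 : Nat.card G = 6 := by omega
    haveI : Fact (Nat.Prime 2) := ⟨Nat.prime_two⟩
    obtain ⟨t, ht⟩ := exists_prime_orderOf_dvd_card' 2 he
    have h8 := cz_dvd t
    have h9 := orderOf_dvd_cz t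
    have h10 := hno t
    have h11 : cz t ≠ Nat.card G := fun h => by
      rw [sm_one hA h, orderOf_one] at ht
      omega
    rw [h7] at h8 h11
    rw [ht] at h9
    have h12 := Nat.le_of_dvd (by norm_num) h8
    generalize cz t = c at *
    interval_cases c <;> omega
  · obtain ⟨y, hy⟩ := exists_prime_orderOf_dvd_card' (G := centralizer ({g} : Set G)) 3 hg
    rw [← orderOf_coe] at hy
    have y1 : (y : G) ≠ 1 := fun h => by
      rw [h, orderOf_one] at hy
      omega
    by_cases g1 : g = 1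
    · exact Or.inr (g1 ▸ cz_one)
    have h4 : g ∈ zpowers (y : G) := (sm_prime Nat.prime_three (h3 y hy) y1).2 ▸
      mem_centralizer_singleton_iff.2 (mem_centralizer_singleton_iff.1 y.2).symm
    left
    rw [cz, hz y (h3 y hy) g h4 g1]
    exact h3 y hy

/-- Let `S ≥ C(x)` be a Sylow `2`-subgroup of order `≥ 16`.  The `S`-class of `x` has `|S| / 4`
elements and lies in `x S'`, so `[S : S'] ∣ 4`; `S` is not abelian, so `S / S'` is not cyclic
(`FGS.not_isCyclic..`, or `commutative_of_cyclic_center_quotient`-type Frattini argument) and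
`[S : S'] = 4`.  `FGS.exists_index_le_two_aux`: `a ∈ S` of order `2 ^ n` with `|S| ≤ 2 ^ (n + 1)`,
`n ≥ 3`.  `RatIn.totient_mul_dvd`, `orderOf_dvd_cz`: `2 ^ (n - 1) * 2 ^ n ∣ |G|`, so
`2 n - 1 ≤ n + 1`. -/
theorem sm_four (hG : RatIn (⊤ : Subgroup G)) {x : G} (hx : cz x = 4) : ¬ 16 ∣ Nat.card G := by
  intro h16
  haveI : Fact (Nat.Prime 2) := ⟨Nat.prime_two⟩
  have hp : IsPGroup 2 (centralizer ({x} : Set G)) := IsPGroup.of_card (n := 2) hx
  obtain ⟨S, hS⟩ := hp.exists_le_sylow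
  have hm : 4 ≤ (Nat.card G).factorization 2 :=
    (Nat.prime_two.pow_dvd_iff_le_factorization Nat.card_pos.ne').1 h16
  have hc := S.card_eq_multiplicity
  let y : (S : Subgroup G) := ⟨x, hS (mem_centralizer_singleton_iff.2 rfl)⟩
  have hy : cz y = 4 := by
    have : centralizer ({y} : Set (S : Subgroup G)) = (centralizer {x}).subgroupOf S := by
      ext g
      rw [mem_subgroupOf, mem_centralizer_singleton_iff, mem_centralizer_singleton_iff,
        Subtype.ext_iff]
      rfl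
    rw [cz, this, Nat.card_congr (subgroupOfEquivOfLe hS).toEquiv]
    exact hx
  have h16' : 16 ≤ Nat.card (S : Subgroup G) := hc ▸ Nat.pow_le_pow_right two_pos hm
  have h1 := sm_cz_mul y
  have h2 : {z | IsConj y z}.ncard ≤ Nat.card (commutator (S : Subgroup G)) := by
    rw [← SetLike.coe_sort_coe (commutator (S : Subgroup G)), Nat.card_coe_set_eq]
    refine Set.ncard_le_ncard_of_injOn (fun z => z * y⁻¹) (fun z hz => ?_)
      (mul_left_injective _).injOn
    obtain ⟨g, rfl⟩ := isConj_iff.1 hz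
    exact commutator_mem_commutator (mem_top g) (mem_top y)
  have h3 := (commutator (S : Subgroup G)).card_mul_index
  have h4 : commutator (S : Subgroup G) ≠ ⊥ := fun h => by
    rw [h, card_bot] at h2
    rw [hy] at h1
    omega
  have h5 := (PGroup.sq_le_index_frattini S.isPGroup' (FGS.not_isCyclic_of_commutator_ne_bot h4)).trans
    (index_antitone (PGroup.commutator_le_frattini S.isPGroup'))
  have h6 : (commutator (S : Subgroup G)).index = 4 := by
    refine le_antisymm ?_ h5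
    have h7 : 0 < Nat.card (commutator (S : Subgroup G)) := Nat.card_pos
    rw [hy] at h1
    by_contra h8
    nlinarith [Nat.mul_le_mul_left (Nat.card (commutator (S : Subgroup G)))
      (show 5 ≤ (commutator (S : Subgroup G)).index by omega)]
  obtain ⟨a, ha⟩ := FGS.exists_index_le_two_aux _ _ le_rfl S.isPGroup' h6
  obtain ⟨n, hn⟩ := IsPGroup.iff_orderOf.1 S.isPGroup' a
  have h7 := (zpowers a).card_mul_index
  rw [Nat.card_zpowers, hn, hc] at h7
  have h8 : (Nat.card G).factorization 2 ≤ n + 1 :=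
    (Nat.pow_le_pow_iff_right one_lt_two).1 (by
      rw [← h7, pow_succ]; exact Nat.mul_le_mul_left _ ha)
  obtain ⟨k, rfl⟩ : ∃ k, n = k + 1 := ⟨n - 1, by omega⟩
  rw [← orderOf_coe] at hn
  have h9 := (Nat.mul_dvd_mul_left _ (orderOf_dvd_cz (a : G))).trans (hG.totient_mul_dvd a)
  rw [hn, Nat.totient_prime_pow_succ Nat.prime_two, show 2 - 1 = 1 from rfl, mul_one,
    ← pow_add] at h9
  have h10 := (Nat.prime_two.pow_dvd_iff_le_factorization Nat.card_pos.ne').1 h9
  omega

end Cfsg.Lib.AH
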