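import Cfsg.Agent.Lib.AH.Nrm
import Cfsg.Agent.Lib.AH.Bot
import Cfsg.Agent.Lib.AH.Pln
import Cfsg.Agent.Lib.AH.Num
import Cfsg.Agent.Lib.AH.Sm

/-!
# The `S₃`-conjecture for solvable groups
-/

set_option autoImplicit false

namespace Cfsg.Lib.AH

open Subgroup

variable {G : Type*} [Group G] [Finite G]

theorem cz_cases [Nontrivial G] (hA : AH G) (hs : Group.IsSolvable G) {p : ℕ} (hp : p.Prime)
    (h5 : 5 ≤ p) {x : G} (hx : p ∣ cz x) :
    p ^ 4 ∣ cz x ∨ (p = 5 ∧ 16 ∣ Nat.card G ∧ 75 ∣ cz x) := by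
  haveI := Fact.mk hp
  obtain ⟨P⟩ : Nonempty (Sylow p G) := inferInstance
  haveI := sylow_normal h5 G hs hA.rat P
  obtain ⟨k, l, hkl, hc, hk, ⟨j, hl⟩, hkx, hlx⟩ := exists_parts hp x
  have hmem : ∀ y : G, (∃ j : ℕ, y ^ p ^ j = 1) → y ∈ (P : Subgroup G) := fun y ⟨j, hy⟩ => by
    have h1 : IsPGroup p (zpowers y) := by
      obtain ⟨i, -, hi⟩ := (Nat.dvd_prime_pow hp).1 (orderOf_dvd_of_pow_eq_one hy)
      exact IsPGroup.of_card (by rw [Nat.card_zpowers, hi])
    obtain ⟨Q, hQ⟩ := h1.exists_le_sylow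
    haveI := Sylow.unique_of_normal P inferInstance
    rw [Subsingleton.elim P Q]
    exact hQ (mem_zpowers y)
  have hck : centralizer ({x} : Set G) ≤ centralizer {k} := fun g hg => by
    obtain ⟨i, rfl⟩ := hkx
    rw [mem_centralizer_singleton_iff] at hg ⊢
    exact (Commute.zpow_right hg i)
  obtain ⟨y, hy, hyo⟩ := Core.exists_mem_orderOf_eq_prime hp (H := centralizer {x}) hx
  have hne : (P : Subgroup G) ⊓ centralizer {k} ≠ ⊥ := fun h0 => by
    have : y ∈ (P : Subgroup G) ⊓ centralizer {k} :=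
      ⟨hmem y ⟨1, by rw [pow_one, ← hyo, pow_orderOf_eq_one]⟩, hck hy⟩
    rw [h0, mem_bot] at this
    rw [this, orderOf_one] at hyo
    exact hp.one_lt.ne hyo
  obtain ⟨Z, hZ, h⟩ := exists_bt hA.rat hp h5 P.isPGroup' P.not_dvd_index hk hne
  have hZx : Z ≤ centralizer {x} := fun z hz => by
    have h1 : z * k = k * z := mem_centralizer_singleton_iff.1 (hZ.le hz).2
    have h2 : z * l = l * z :=
      hZ.cen ⟨hmem l ⟨j, hl⟩, mem_centralizer_singleton_iff.2 hc.eq.symm⟩ z hz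
    rw [mem_centralizer_singleton_iff, hkl, ← mul_assoc, h1, mul_assoc, h2, mul_assoc]
  have hd : Nat.card Z ∣ cz x := card_dvd_of_le hZx
  rcases h with h | ⟨h, τ, hτ⟩
  · exact Or.inl (h.trans hd)
  · obtain ⟨rfl, h3, h16⟩ := hZ.pln hA hp h5 P.not_dvd_index hk h hτ
      (hA.rat.exists_index_two hs)
    refine Or.inr ⟨rfl, h16, ?_⟩
    have h3' : 3 ∣ cz x := (h3.trans (orderOf_dvd_of_mem_zpowers hkx)).trans (orderOf_dvd_cz x)
    exact Nat.Coprime.mul_dvd_of_dvd_of_dvd (m := 5 ^ 2) (n := 3) (by norm_num) (h ▸ hd) h3'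

theorem ok_cz [Nontrivial G] (hA : AH G) (hs : Group.IsSolvable G) (x : G) :
    Ok (16 ∣ Nat.card G) (cz x) := by
  refine ⟨by have := two_le_cz x; omega, fun p hp h7 hx => ?_, fun hx => ?_⟩
  · rcases cz_cases hA hs hp (by omega) hx with h | ⟨h, -⟩
    · exact h
    · omega
  · rcases cz_cases hA hs Nat.prime_five le_rfl hx with h | ⟨-, h⟩
    · exact Or.inl h
    · exact Or.inr h

theorem main [Nontrivial G] (hA : AH G) (hs : Group.IsSolvable G) :
    Nonempty (G ≃* Equiv.Perm (Fin 3)) := by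
  have h2 := hA.rat.exists_index_two hs
  by_cases hx2 : ∃ x : G, cz x = 2
  · obtain ⟨x, hx⟩ := hx2
    exact sm_two hA h2 hx
  push Not at hx2
  exfalso
  obtain ⟨T, hT, hsum⟩ := hA.sum
  by_cases hx3 : ∃ x : G, cz x = 3
  · obtain ⟨x, hx⟩ := hx3
    obtain ⟨X, hX⟩ := h2
    obtain ⟨h12, h3⟩ := sm_three hA (hX ▸ X.index_dvd_card) hx2 hx
    refine (num_three (16 ∣ Nat.card G) T h12 fun c hc => ?_).ne hsum
    obtain ⟨g, rfl⟩ := hT c hc
    by_cases hg : 3 ∣ cz g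
    · rcases h3 g hg with h | h
      · exact Or.inl h
      · exact Or.inr (Or.inl h)
    · have := two_le_cz g
      have := hx2 g
      exact Or.inr (Or.inr ⟨ok_cz hA hs g, by omega, hg⟩)
  push Not at hx3
  by_cases hx4 : ∃ x : G, cz x = 4
  · obtain ⟨x, hx⟩ := hx4
    have h16 := sm_four hA.rat hx
    refine (num_four T fun c hc => ?_).ne hsum
    obtain ⟨g, rfl⟩ := hT c hc
    have := two_le_cz g
    have := hx2 g
    have := hx3 g
    have h := ok_cz hA hs g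
    rw [eq_false h16] at h
    exact ⟨h, by omega, fun h' => h16 (h'.trans (cz_dvd g))⟩
  push Not at hx4
  refine (num_main (16 ∣ Nat.card G) T fun c hc => ?_).ne hsum
  obtain ⟨g, rfl⟩ := hT c hc
  have := two_le_cz g
  have := hx2 g
  have := hx3 g
  have := hx4 g
  exact ⟨ok_cz hA hs g, by omega⟩

end Cfsg.Lib.AH
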