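import Cfsg.Agent.Lib.AH.Grp

/-!
# A solvable rational group has a normal Sylow `p`-subgroup for `p ≥ 5`
-/

set_option autoImplicit false

namespace Cfsg.Lib.AH

open Subgroup

universe u

/-- A subgroup `V₀` of index `p` in `V` is the kernel of a homomorphism `f` onto `ZMod p`
(`mulEquivOfPrimeCardEq` for `V ⧸ V₀`), so the perp of some `a ≠ 1` (`Fm.surj`).  If `a' ⊥ V₀`, take
`u ∈ V \ V₀`, so `V = V₀ ⟨u⟩`, and `c` with `B a' u = c * B a u`; then `a' = a ^ c.val` by `nd`. -/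
theorem Fm.exists_perp {G : Type*} [Group G] [Finite G] {p : ℕ} {H V V₀ : Subgroup G}
    {B : G → G → ZMod p} (hB : Fm p H V B) (hp : p.Prime) (hV : IsElementaryAbelian p V)
    (h0 : V₀ ≤ V) (hi : V₀.relIndex V = p) :
    ∃ a ∈ V, a ≠ 1 ∧ (∀ y ∈ V, y ∈ V₀ ↔ B a y = 0) ∧
      ∀ a' ∈ V, (∀ y ∈ V₀, B a' y = 0) → a' ∈ zpowers a := by
  haveI := Fact.mk hp
  haveI := hV.1
  haveI : (V₀.subgroupOf V).Normal := ⟨fun n hn g => by
    rwa [mul_comm' g n, mul_inv_cancel_right]⟩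
  have hc : Nat.card (V ⧸ V₀.subgroupOf V) = p := hi
  let e : (V ⧸ V₀.subgroupOf V) ≃* Multiplicative (ZMod p) :=
    mulEquivOfPrimeCardEq hc (by simp)
  classical
  let f : G → ZMod p := fun x => if h : x ∈ V then (e (QuotientGroup.mk ⟨x, h⟩)).toAdd else 0
  have hf : ∀ x (h : x ∈ V), f x = (e (QuotientGroup.mk ⟨x, h⟩)).toAdd := fun x h => dif_pos h
  have hf0 : ∀ y ∈ V, y ∈ V₀ ↔ f y = 0 := fun y hy => by
    rw [hf y hy, toAdd_eq_zero, map_eq_one_iff _ e.injective, QuotientGroup.eq_one_iff,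
      mem_subgroupOf]
  obtain ⟨a, ha, hBa⟩ := hB.surj f fun x hx y hy => by
    rw [hf x hx, hf y hy, hf _ (V.mul_mem hx hy), ← toAdd_mul, ← map_mul, ← QuotientGroup.mk_mul]
    rfl
  have hB1 : ∀ y ∈ V, B 1 y = 0 := fun y hy => by
    have := hB.mul_left 1 V.one_mem 1 V.one_mem y hy
    rw [mul_one] at this
    linear_combination -this
  have hBp : ∀ x ∈ V, ∀ y ∈ V, ∀ n : ℕ, B (x ^ n) y = n * B x y := fun x hx y hy n => by
    induction n with
    | zero => rw [pow_zero, hB1 y hy]; simp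
    | succ n ih => rw [pow_succ, hB.mul_left _ (V.pow_mem hx n) _ hx _ hy, ih]; push_cast; ring
  have hB1' : ∀ y ∈ V, B y 1 = 0 := fun y hy => by
    have := hB.mul_right y hy 1 V.one_mem 1 V.one_mem
    rw [mul_one] at this
    linear_combination -this
  have hBp' : ∀ x ∈ V, ∀ y ∈ V, ∀ n : ℕ, B x (y ^ n) = n * B x y := fun x hx y hy n => by
    induction n with
    | zero => rw [pow_zero, hB1' x hx]; simp
    | succ n ih => rw [pow_succ, hB.mul_right _ hx _ (V.pow_mem hy n) _ hy, ih]; push_cast; ring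
  obtain ⟨u, hu, hu0⟩ : ∃ u ∈ V, u ∉ V₀ := by
    by_contra hcon
    push Not at hcon
    rw [relIndex_eq_one.2 hcon] at hi
    exact hp.one_lt.ne hi
  have hau : B a u ≠ 0 := by rw [hBa u hu, Ne, ← hf0 u hu]; exact hu0
  refine ⟨a, ha, fun h1 => hau (h1 ▸ hB1 u hu), fun y hy => by rw [hBa y hy, hf0 y hy],
    fun a' ha' h' => ?_⟩
  let c : ℕ := (B a' u / B a u).val
  have hcc : (c : ZMod p) = B a' u / B a u := ZMod.natCast_zmod_val _
  have hb := V.mul_mem ha' (V.pow_mem ha ((p - 1) * c))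
  have h1 : a' * a ^ ((p - 1) * c) = 1 := by
    refine hB.nd _ hb fun y hy => ?_
    let d : ℕ := (-(B a y / B a u)).val
    have hd : (d : ZMod p) = -(B a y / B a u) := ZMod.natCast_zmod_val _
    have hy0 : y * u ^ d ∈ V₀ := by
      rw [hf0 _ (V.mul_mem hy (V.pow_mem hu d)), ← hBa _ (V.mul_mem hy (V.pow_mem hu d)),
        hB.mul_right _ ha _ hy _ (V.pow_mem hu d), hBp' _ ha _ hu, hd]
      field_simp
      ring
    have h2 := h' _ hy0
    rw [hB.mul_right _ ha' _ hy _ (V.pow_mem hu d), hBp' _ ha' _ hu, hd] at h2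
    rw [hB.mul_left _ ha' _ (V.pow_mem ha _) _ hy, hBp _ ha _ hy, Nat.cast_mul,
      Nat.cast_sub hp.one_le, ZMod.natCast_self, hcc]
    field_simp at h2 ⊢
    linear_combination h2
  rw [eq_inv_of_mul_eq_one_left h1]
  exact inv_mem (pow_mem (mem_zpowers a) _)

theorem eq_of_mul_inv_mem {G : Type*} [Group G] {H N : Subgroup G} (hi : N ⊓ H = ⊥) {x y : G}
    (hx : x ∈ H) (hy : y ∈ H) (h : x * y⁻¹ ∈ N) : x = y := by
  have : x * y⁻¹ ∈ N ⊓ H := ⟨h, H.mul_mem hx (H.inv_mem hy)⟩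
  rwa [hi, mem_bot, mul_inv_eq_one] at this

theorem exists_nh {G : Type*} [Group G] {H N : Subgroup G} [N.Normal] (hs : N ⊔ H = ⊤) (g : G) :
    ∃ n ∈ N, ∃ h ∈ H, g = n * h := by
  have : g ∈ ((N ⊔ H : Subgroup G) : Set G) := hs ▸ mem_top g
  rw [normal_mul] at this
  obtain ⟨n, hn, h, hh, rfl⟩ := this
  exact ⟨n, hn, h, hh, rfl⟩

/-- The final computation of `nrm_core`. -/
theorem nrm_fin {G : Type*} [Group G] [Finite G] {N M R : Subgroup G} [N.Normal]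
    (hN : IsMulCommutative N) (hM : M ≤ N) (hR : R ≤ N) (hMR : M ⊓ R = ⊥)
    (hd : ∀ n ∈ N, ∃ m ∈ M, ∃ ρ ∈ R, n = m * ρ) {z n₀ : G} (hzM : z ∈ normalizer (M : Set G))
    (hzR : z ∈ normalizer (R : Set G)) (h0 : n₀ ∈ M) (h1 : n₀ ≠ 1) (hz0 : z * n₀ * z⁻¹ = n₀)
    (h : ∀ n₁ ∈ M, ∃ n ∈ N, ∃ ρ ∈ R, n₁⁻¹ = z * n * z⁻¹ * n⁻¹ * ρ) : False := by
  have cM : ∀ m ∈ M, z * m * z⁻¹ ∈ M := fun m hm => (mem_normalizer_iff.1 hzM m).1 hm
  have cR : ∀ m ∈ R, z * m * z⁻¹ ∈ R := fun m hm => (mem_normalizer_iff.1 hzR m).1 hm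
  let θ : M → M := fun m => ⟨z * m * z⁻¹ * (m : G)⁻¹, M.mul_mem (cM _ m.2) (M.inv_mem m.2)⟩
  have hinj : Function.Injective θ := by
    rw [Finite.injective_iff_surjective]
    intro n₁
    obtain ⟨n, hn, ρ, hρ, he⟩ := h _ (M.inv_mem n₁.2)
    obtain ⟨m, hm, σ, hσ, rfl⟩ := hd n hn
    refine ⟨⟨m, hm⟩, Subtype.ext ?_⟩
    change z * m * z⁻¹ * m⁻¹ = n₁
    have c1 : z * σ * z⁻¹ * σ⁻¹ * m⁻¹ = m⁻¹ * (z * σ * z⁻¹ * σ⁻¹) :=
      setLike_mul_comm (s := N) (hR (R.mul_mem (cR _ hσ) (R.inv_mem hσ))) (hM (M.inv_mem hm))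
    have e1 : (z * m * z⁻¹ * m⁻¹)⁻¹ * n₁ = z * σ * z⁻¹ * σ⁻¹ * ρ := by
      rw [inv_inv] at he
      rw [he, inv_mul_eq_iff_eq_mul]
      calc z * (m * σ) * z⁻¹ * (m * σ)⁻¹ * ρ
          = z * m * z⁻¹ * (z * σ * z⁻¹ * σ⁻¹ * m⁻¹) * ρ := by group
        _ = _ := by rw [c1]; group
    have : (z * m * z⁻¹ * m⁻¹)⁻¹ * n₁ ∈ M ⊓ R :=
      ⟨M.mul_mem (M.inv_mem (M.mul_mem (cM _ hm) (M.inv_mem hm))) n₁.2,
        e1 ▸ R.mul_mem (R.mul_mem (cR _ hσ) (R.inv_mem hσ)) hρ⟩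
    rwa [hMR, mem_bot, inv_mul_eq_one] at this
  have : θ ⟨n₀, h0⟩ = θ 1 := Subtype.ext (by simp [θ, hz0])
  exact h1 (congrArg Subtype.val (hinj this))

/-- `le_of_forall_hyperplane'` gives `V₀` of index `p` in `V` with `M = N ⊓ C(V₀) ≠ 1`;
`V₀ = a^⊥`.  Take `1 ≠ n₀ ∈ M`.  `RatIn.two` for `a, n₀`, `m = 2` and `G = N H` give `z ∈ H` with
`z a z⁻¹ = a ^ 2` centralizing `n₀`; `z` normalizes `V₀`, `M`, `R = ⁅N, V₀⁆`.  `θ m = z m z⁻¹ m⁻¹`
is not injective on `M`, so some `n₁ ∈ M` is not in `θ M`.  `n₁ z` is inverted by `n w` (`n ∈ N`,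
`w ∈ H`): `w z w⁻¹ = z⁻¹` and `n₁⁻¹ = (z n z⁻¹ n⁻¹) (z n₁' z⁻¹)`, `n₁' = w n₁ w⁻¹`.
`V₀' = w V₀ w⁻¹ ≠ V₀` (else `a' = w a w⁻¹ ∈ zpowers a` has `z a' z⁻¹ = a' ^ 2 = z⁻¹ a' z`, so
`a' ^ 3 = 1`), so `V₀ ⊔ V₀' = V`, `M' = N ⊓ C(V₀')` has `M' ⊓ C(V₀) = 1`, `M' = ⁅M', V₀⁆ ≤ R`.
Write `n = m ρ` (`m ∈ M`, `ρ ∈ R`); `M ⊓ R = 1` (abelian, coprime) gives `n₁ = θ m⁻¹`. -/
theorem nrm_core {G : Type*} [Group G] [Finite G] {p r : ℕ} {H V N : Subgroup G} [N.Normal]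
    (h : Md p H V) (hr : r.Prime) (hrp : r ≠ p) (hN : IsElementaryAbelian r N) (hN0 : N ≠ ⊥)
    (hi : N ⊓ H = ⊥) (hs : N ⊔ H = ⊤) (hc : N ⊓ centralizer (V : Set G) = ⊥)
    (hG : RatIn (⊤ : Subgroup G)) : False := by
  have hp := h.hp
  haveI := Fact.mk hp
  haveI := Fact.mk hr
  haveI := h.el.1
  haveI := hN.1
  obtain ⟨B, hB⟩ := h.exists_fm
  have hVp := Core.isPGroup_of_isElementaryAbelian h.el
  have hNr := Core.isPGroup_of_isElementaryAbelian hN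
  have cop : ∀ {A K : Subgroup G}, A ≤ V → K ≤ N → (Nat.card A).Coprime (Nat.card K) :=
    fun hA hK => IsPGroup.coprime_card_of_ne p r hrp.symm _ _ (hVp.to_le hA) (hNr.to_le hK)
  have nN : ∀ A : Subgroup G, A ≤ normalizer (N : Set G) := fun A => le_normalizer_of_normal
  obtain ⟨V₀, h0, hi0, hM0⟩ : ∃ V₀ ≤ V, V₀.relIndex V = p ∧ N ⊓ centralizer (V₀ : Set G) ≠ ⊥ := by
    by_contra hcon
    push Not at hcon
    exact hN0 (le_bot_iff.1 (Coprime.le_of_forall_hyperplane' h.el h.ne (nN V) (cop le_rfl le_rfl)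
      fun A hA hA' => (hcon A hA hA').le))
  obtain ⟨a, ha, ha1, hperp, hspan⟩ := hB.exists_perp hp h.el h0 hi0
  have ha0 : a ∈ V₀ := (hperp a ha).2 (hB.alt a ha)
  obtain ⟨⟨n₀, hn₀, hn₀c⟩, hn₀1⟩ := ne_bot_iff_exists_ne_one.1 hM0
  have hn₀1' : n₀ ≠ 1 := fun e => hn₀1 (Subtype.ext e)
  have hao : orderOf a = p := orderOf_eq_prime (h.el.2 a ha) ha1
  have hno : orderOf n₀ = r := orderOf_eq_prime (hN.2 _ hn₀) hn₀1'
  have h2p : Nat.Coprime 2 p := (Nat.coprime_primes Nat.prime_two hp).2 (by have := h.five; omega)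
  obtain ⟨g, -, hga, hgn⟩ := hG.two (mem_top a) (mem_top n₀) (hn₀c a ha0)
    (by rw [hao, hno]; exact (Nat.coprime_primes hp hr).2 hrp.symm) (m := 2) (hao ▸ h2p)
  obtain ⟨n, hn, z, hz, rfl⟩ := exists_nh hs g
  have cV : ∀ g ∈ H, ∀ v ∈ V, g * v * g⁻¹ ∈ V := fun g hg v hv =>
    (mem_normalizer_iff.1 (h.norm hg) v).1 hv
  have hza : z * a * z⁻¹ = a ^ 2 := by
    refine eq_of_mul_inv_mem hi (h.le (cV z hz a ha)) (h.le (V.pow_mem ha 2)) ?_
    have : z * a * z⁻¹ * (a ^ 2)⁻¹ = n⁻¹ * (a ^ 2 * n * (a ^ 2)⁻¹) := by rw [← hga]; group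
    rw [this]
    exact N.mul_mem (N.inv_mem hn) (‹N.Normal›.conj_mem n hn _)
  have hzn : z * n₀ * z⁻¹ = n₀ := by
    have e1 : z * n₀ * z⁻¹ = n⁻¹ * n₀ * n := by
      conv_rhs => rw [← hgn]
      group
    rw [e1, setLike_mul_comm (s := N) (N.inv_mem hn) hn₀, inv_mul_cancel_right]
  have hBsq : ∀ y ∈ V, B (a ^ 2) y = 2 * B a y := fun y hy => by
    rw [sq, hB.mul_left a ha a ha y hy]; ring
  have h20 : (2 : ZMod p) ≠ 0 := by
    have := (ZMod.natCast_eq_zero_iff 2 p).not.2 ((Nat.Prime.coprime_iff_not_dvd hp).1 h2p.symm)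
    exact_mod_cast this
  have hzV : z ∈ normalizer (V₀ : Set G) := by
    rw [mem_normalizer_iff]
    intro y
    refine ⟨fun hy => ?_, fun hy => ?_⟩
    · have hy' := h0 hy
      rw [hperp _ (cV z hz y hy')]
      have := hB.inv z hz a ha y hy'
      rw [hza, hBsq _ (cV z hz y hy'), (hperp y hy').1 hy] at this
      exact (mul_eq_zero.1 this).resolve_left h20
    · have hy' : y ∈ V := (mem_normalizer_iff.1 (h.norm hz) y).2 (h0 hy)
      rw [hperp y hy', ← hB.inv z hz a ha y hy', hza, hBsq _ (h0 hy), (hperp _ (h0 hy)).1 hy,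
        mul_zero]
  have hzV' : zpowers z ≤ normalizer (V₀ : Set G) := zpowers_le.2 hzV
  refine nrm_fin (N := N) (M := N ⊓ centralizer (V₀ : Set G)) (R := ⁅N, V₀⁆) hN.1 inf_le_left
    (commutator_le_left N V₀) ?_ ?_ (z := z) (n₀ := n₀) ?_ ?_ ⟨hn₀, hn₀c⟩ hn₀1' hzn ?_
  · exact le_bot_iff.1 ((inf_le_inf_right _ inf_le_right).trans
      (Coprime.centralizer_inf_commutator_eq_bot hN.1 (nN V₀) (cop h0 le_rfl)).le)
  · exact fun m hm => Coprime.exists_centralizer_mul_commutator (nN V₀) (cop h0 le_rfl)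
      (Or.inr (Coprime.isSolvable_of_isMulCommutative hN.1)) hm
  · exact Coprime.le_normalizer_inf (nN _) (Coprime.le_normalizer_centralizer hzV')
      (mem_zpowers z)
  · exact Coprime.le_normalizer_commutator (nN _) hzV' (mem_zpowers z)
  intro n₁ hn₁
  obtain ⟨g, -, hg⟩ := hG.inv (mem_top (n₁ * z))
  obtain ⟨n', hn', w, hw, rfl⟩ := exists_nh hs g
  have hn₁' : w * n₁ * w⁻¹ ∈ N := ‹N.Normal›.conj_mem _ hn₁.1 w
  have hwz : w * z * w⁻¹ = z⁻¹ := by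
    refine eq_of_mul_inv_mem hi (H.mul_mem (H.mul_mem hw hz) (H.inv_mem hw)) (H.inv_mem hz) ?_
    have : w * z * w⁻¹ * z⁻¹⁻¹ = (w * n₁ * w⁻¹)⁻¹ * n'⁻¹ * (z⁻¹ * (n₁⁻¹ * n') * z⁻¹⁻¹) := by
      have e1 : w * z * w⁻¹ = (w * n₁ * w⁻¹)⁻¹ * n'⁻¹ * (n' * w * (n₁ * z) * (n' * w)⁻¹) * n' := by
        group
      rw [e1, hg]; group
    rw [this]
    exact N.mul_mem (N.mul_mem (N.inv_mem hn₁') (N.inv_mem hn'))
      (‹N.Normal›.conj_mem _ (N.mul_mem (N.inv_mem hn₁.1) hn') _)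
  -- `V₀' = w V₀ w⁻¹`
  let V₁ : Subgroup G := V₀.map (MulAut.conj w).toMonoidHom
  have hV₁ : V₁ ≤ V := by
    rintro _ ⟨v, hv, rfl⟩
    exact cV w hw v (h0 hv)
  have hne : ¬ V₁ ≤ V₀ := fun hle => by
    have hcard : V₁ = V₀ := eq_of_le_of_card_ge hle (Coprime.card_map_conj w V₀).ge
    have ha' := cV w hw a ha
    obtain ⟨i, hia⟩ := hspan _ ha' fun y hy => by
      rw [← hcard] at hy
      obtain ⟨v, hv, rfl⟩ := hy
      exact (hB.inv w hw a ha v (h0 hv)).trans ((hperp v (h0 hv)).1 hv)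
    have e1 : z * (w * a * w⁻¹) * z⁻¹ = (w * a * w⁻¹) ^ 2 := by
      rw [← hia]
      change z * a ^ i * z⁻¹ = (a ^ i) ^ 2
      rw [← conj_zpow, hza, ← zpow_natCast, ← zpow_natCast, ← zpow_mul, ← zpow_mul, mul_comm]
    have e2 : z⁻¹ * (w * a * w⁻¹) * z = (w * a * w⁻¹) ^ 2 := by
      have e3 : z = (w * z * w⁻¹)⁻¹ := by rw [hwz, inv_inv]
      rw [conj_pow, ← hza]
      calc z⁻¹ * (w * a * w⁻¹) * z = (w * z * w⁻¹) * (w * a * w⁻¹) * (w * z * w⁻¹)⁻¹ := by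
            rw [← e3, hwz]
        _ = _ := by group
    have e4 : (w * a * w⁻¹) ^ 3 = 1 := by
      have e5 : w * a * w⁻¹ = ((w * a * w⁻¹) ^ 2) ^ 2 := by
        calc w * a * w⁻¹ = z * (z⁻¹ * (w * a * w⁻¹) * z) * z⁻¹ := by group
          _ = (z * (w * a * w⁻¹) * z⁻¹) ^ 2 := by rw [e2, ← conj_pow]
          _ = _ := by rw [e1]
      have e6 : (w * a * w⁻¹) * (w * a * w⁻¹) ^ 3 = (w * a * w⁻¹) * 1 := by
        rw [mul_one]; conv_rhs => rw [e5]
        rw [← pow_mul, ← pow_succ']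
      exact mul_left_cancel e6
    rw [conj_pow, conj_eq_one_iff] at e4
    have := (Nat.prime_dvd_prime_iff_eq hp Nat.prime_three).1 (hao ▸ orderOf_dvd_of_pow_eq_one e4)
    have := h.five
    omega
  have hsup : V₀ ⊔ V₁ = V := by
    have hle : V₀ ⊔ V₁ ≤ V := sup_le h0 hV₁
    have h1 := relIndex_mul_relIndex V₀ (V₀ ⊔ V₁) V le_sup_left hle
    rw [hi0] at h1
    rcases (Nat.dvd_prime hp).1 (Dvd.intro _ h1) with h2 | h2
    · exact absurd (le_sup_right.trans (relIndex_eq_one.1 h2)) hne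
    · rw [h2] at h1
      exact le_antisymm hle (relIndex_eq_one.1 (by
        have := hp.pos
        nlinarith [Nat.pos_of_ne_zero (show (V₀ ⊔ V₁).relIndex V ≠ 0 from
          index_ne_zero_of_finite)]))
  have hM₁ : N ⊓ centralizer (V₁ : Set G) ≤ ⁅N, V₀⁆ := by
    have hn1 : V₀ ≤ normalizer ((N ⊓ centralizer (V₁ : Set G) : Subgroup G) : Set G) :=
      Coprime.le_normalizer_inf (nN _) (le_trans (b := centralizer (V₁ : Set G)) (fun v hv u hu =>
        setLike_mul_comm (s := V) (hV₁ hu) (h0 hv)) le_normalizer)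
    have h1 := Coprime.commutator_sup_centralizer hn1 (cop h0 inf_le_left)
      (Or.inl (Coprime.isSolvable_of_isMulCommutative ⟨⟨fun a b => Subtype.ext
        (setLike_mul_comm (s := V) (h0 a.2) (h0 b.2))⟩⟩))
    have h2 : N ⊓ centralizer (V₁ : Set G) ⊓ centralizer (V₀ : Set G) = ⊥ := by
      refine le_bot_iff.1 (le_trans (fun x hx => ?_) hc.le)
      refine ⟨hx.1.1, ?_⟩
      have h3 : V ≤ centralizer ({x} : Set G) := by
        rw [← hsup]
        exact sup_le (fun v hv => mem_centralizer_singleton_iff.2 (hx.2 v hv))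
          fun v hv => mem_centralizer_singleton_iff.2 (hx.1.2 v hv)
      exact fun v hv => mem_centralizer_singleton_iff.1 (h3 hv)
    rw [h2, sup_bot_eq] at h1
    exact h1.ge.trans (commutator_mono inf_le_left le_rfl)
  have hρ : w * n₁ * w⁻¹ ∈ ⁅N, V₀⁆ := hM₁ ⟨hn₁', by
    rintro _ ⟨v, hv, rfl⟩
    change w * v * w⁻¹ * (w * n₁ * w⁻¹) = w * n₁ * w⁻¹ * (w * v * w⁻¹)
    have := hn₁.2 v hv
    calc w * v * w⁻¹ * (w * n₁ * w⁻¹) = w * (v * n₁) * w⁻¹ := by group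
      _ = _ := by rw [this]; group⟩
  have hρ' : z * (w * n₁ * w⁻¹) * z⁻¹ ∈ ⁅N, V₀⁆ :=
    (mem_normalizer_iff.1 (Coprime.le_normalizer_commutator (nN _) hzV' (mem_zpowers z)) _).1 hρ
  refine ⟨n', hn', _, hρ', ?_⟩
  have c1 : n'⁻¹ * (z * (w * n₁ * w⁻¹) * z⁻¹) = z * (w * n₁ * w⁻¹) * z⁻¹ * n'⁻¹ :=
    setLike_mul_comm (s := N) (N.inv_mem hn') (‹N.Normal›.conj_mem _ hn₁' z)
  calc n₁⁻¹ = z * (n₁ * z)⁻¹ := by group
    _ = z * n' * (w * n₁ * w⁻¹) * (w * z * w⁻¹) * n'⁻¹ := by rw [← hg]; group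
    _ = z * n' * z⁻¹ * (z * (w * n₁ * w⁻¹) * z⁻¹ * n'⁻¹) := by rw [hwz]; group
    _ = _ := by rw [← c1]; group

/-- Strong induction on `card G`.  If `1 ≠ K ⊴ G` is a `p`-group, `K ≤ P` and `P / K ⊴ G / K`.
Otherwise take `N` minimal normal (elementary abelian `r`-group, `r ≠ p`), `P N ⊴ G` by induction,
`H = N(P)`, `N ⊔ H = ⊤` (Frattini, `Sylow.normalizer_sup_eq_top'`), `V` minimal `H`-invariant in
`P ⊓ C(P)` (if `P ≠ 1`).  `N ⊓ C(V) ⊴ G`; if it is `N` then `V ⊴ G`, absurd; so it is trivial, and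
`N ⊓ H ≤ C(P) ≤ C(V)` is trivial.  `RatIn.compl`, `nrm_core`. -/
theorem sylow_normal {p : ℕ} [Fact p.Prime] (h5 : 5 ≤ p) (G : Type u) [Group G] [Finite G]
    (hs : Group.IsSolvable G) (hG : RatIn (⊤ : Subgroup G)) (P : Sylow p G) :
    (P : Subgroup G).Normal := by
  induction hn : Nat.card G using Nat.strong_induction_on generalizing G with
  | _ n ih =>
  have hp : p.Prime := Fact.out
  have quo : ∀ (K : Subgroup G) [K.Normal], K ≠ ⊥ → ((P : Subgroup G) ⊔ K).Normal := by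
    intro K _ hK
    have hlt : Nat.card (G ⧸ K) < n := by
      rw [← hn, card_eq_card_quotient_mul_card_subgroup K]
      exact lt_mul_of_one_lt_right Nat.card_pos ((one_lt_card_iff_ne_bot K).2 hK)
    have hsur := QuotientGroup.mk'_surjective K
    have h1 := ih _ hlt (G ⧸ K) inferInstance (hG.of_surjective _ hsur)
      (P.mapSurjective hsur) rfl
    have h2 := h1.comap (QuotientGroup.mk' K)
    rwa [Sylow.coe_mapSurjective, comap_map_eq, QuotientGroup.ker_mk'] at h2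
  by_cases hK : ∃ K : Subgroup G, K.Normal ∧ K ≠ ⊥ ∧ IsPGroup p K
  · obtain ⟨K, hK, hK0, hKp⟩ := hK
    have := quo K hK0
    rwa [sup_eq_left.2 (hKp.le_sylow_of_normal P)] at this
  push Not at hK
  by_cases hP : (P : Subgroup G) = ⊥
  · rw [hP]; infer_instance
  exfalso
  haveI : Nontrivial G := by
    by_contra hcon
    rw [not_nontrivial_iff_subsingleton] at hcon
    exact hP (eq_bot_of_subsingleton _)
  obtain ⟨N, r, hN, hr, hNr⟩ := Core.exists_isMinNormal_elementary (G := G)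
  haveI := hN.normal
  haveI := Fact.mk hr
  have hrp : r ≠ p := by
    rintro rfl
    exact hK N hN.normal hN.ne_bot (Core.isPGroup_of_isElementaryAbelian hNr)
  haveI := quo N hN.ne_bot
  set H := normalizer ((P : Subgroup G) : Set G) with hH
  have hPH : (P : Subgroup G) ≤ H := le_normalizer
  have hs' : N ⊔ H = ⊤ := by
    have := Sylow.normalizer_sup_eq_top' P (N := (P : Subgroup G) ⊔ N) le_sup_left
    rw [← sup_assoc] at this
    rw [sup_comm, ← this]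
    congr 1
    exact (sup_eq_left.2 hPH).symm
  have hZ : (P : Subgroup G) ⊓ centralizer ((P : Subgroup G) : Set G) ≠ ⊥ := by
    haveI := (nontrivial_iff_ne_bot _).2 hP
    haveI := P.isPGroup'.center_nontrivial
    obtain ⟨⟨⟨z, hz⟩, hzc⟩, hz1⟩ := exists_ne (1 : center (P : Subgroup G))
    refine ne_bot_iff_exists_ne_one.2 ⟨⟨z, hz, fun g hg => ?_⟩, fun e => hz1 ?_⟩
    · exact congrArg Subtype.val (mem_center_iff.1 hzc ⟨g, hg⟩)
    · exact Subtype.ext (Subtype.ext (congrArg Subtype.val e :))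
  obtain ⟨V, hVZ, hVn, hV0, hVm⟩ := Core.exists_minimal_invariant_le (A := H)
    (Coprime.le_normalizer_inf le_rfl (Coprime.le_normalizer_centralizer le_rfl)) hZ
  have hVP : V ≤ P := hVZ.trans inf_le_left
  have hVp : IsPGroup p V := P.isPGroup'.to_le hVP
  have hPV : (P : Subgroup G) ≤ centralizer (V : Set G) :=
    le_centralizer_iff.1 (hVZ.trans inf_le_right)
  have hel : IsElementaryAbelian p V := by
    obtain ⟨q, hq, hVq⟩ := Core.isElementaryAbelian_of_minimal_invariant hVn hV0 inferInstance hVm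
    haveI := Fact.mk hq
    by_cases hqp : q = p
    · exact hqp ▸ hVq
    · exact absurd (le_bot_iff.1 (le_trans (le_inf le_rfl le_rfl) (IsPGroup.disjoint_of_ne q p hqp
        V V (Core.isPGroup_of_isElementaryAbelian hVq) hVp).le_bot)) hV0
  have nrm : ∀ X : Subgroup G, N ≤ normalizer (X : Set G) → H ≤ normalizer (X : Set G) →
      X.Normal := fun X h1 h2 => normalizer_eq_top_iff.1 (top_le_iff.1 (hs' ▸ sup_le h1 h2))
  have hc : N ⊓ centralizer (V : Set G) = ⊥ := by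
    haveI := hNr.1
    have h1 : (N ⊓ centralizer (V : Set G)).Normal := nrm _
      (le_trans (b := centralizer ((N ⊓ centralizer (V : Set G) : Subgroup G) : Set G))
        (fun n hn u hu => setLike_mul_comm (s := N) hu.1 hn) (centralizer_le_normalizer _))
      (Coprime.le_normalizer_inf le_normalizer_of_normal (Coprime.le_normalizer_centralizer hVn))
    refine (hN.min _ h1 inf_le_left).resolve_right fun h2 => ?_
    exact hK V (nrm V ((inf_eq_left.1 h2).trans (centralizer_le_normalizer _)) hVn) hV0 hVp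
  have hi : N ⊓ H = ⊥ := by
    refine le_bot_iff.1 (le_trans (b := N ⊓ centralizer (V : Set G))
      (fun x hx => ⟨hx.1, fun v hv => ?_⟩) hc.le)
    have h1 : x * v * x⁻¹ * v⁻¹ ∈ N ⊓ (P : Subgroup G) := by
      refine mem_inf.2 ⟨?_, mul_mem ((mem_normalizer_iff.1 hx.2 v).1 (hVP hv)) (inv_mem (hVP hv))⟩
      have := N.mul_mem hx.1 (hN.normal.conj_mem _ (N.inv_mem hx.1) v)
      simpa only [mul_assoc] using this
    rw [(IsPGroup.disjoint_of_ne r p hrp N P (Core.isPGroup_of_isElementaryAbelian hNr)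
      P.isPGroup').eq_bot, mem_bot, mul_inv_eq_one, mul_inv_eq_iff_eq_mul] at h1
    exact h1.symm
  refine nrm_core (p := p) (H := H) (V := V) ⟨hp, h5, hV0, hVP.trans hPH, hel, hVn, hVm,
    fun hd => P.not_dvd_index ?_, hG.compl hi hs'⟩ hr hrp hNr hN.ne_bot hi hs' hc hG
  exact (hd.trans (relIndex_dvd_of_le_left H hPV)).trans (relIndex_dvd_index_of_le hPH)

end Cfsg.Lib.AH
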