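import Cfsg.Agent.Lib.AH.Bas

/-!
# Groups with at most one involution
-/

set_option autoImplicit false

namespace Cfsg.Lib.AH

open Subgroup

variable {Y : Type*} [Group Y] [Finite Y]

theorem y_inv (h2 : ∀ a b : Y, a ≠ 1 → b ≠ 1 → a ^ 2 = 1 → b ^ 2 = 1 → a = b) (h : 2 ∣ Nat.card Y) :
    ∃ e : Y, e ≠ 1 ∧ e * e = 1 ∧ (∀ g, g * e = e * g) ∧ ∀ x : Y, x ^ 2 = 1 → x = 1 ∨ x = e := by
  obtain ⟨e, he⟩ := exists_prime_orderOf_dvd_card' 2 h
  have e1 : e ≠ 1 := by rintro rfl; simp at he
  have e2 : e ^ 2 = 1 := he ▸ pow_orderOf_eq_one e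
  refine ⟨e, e1, by rw [← pow_two, e2], fun g => ?_, fun x hx => ?_⟩
  · rw [← mul_inv_eq_iff_eq_mul]
    exact h2 _ _ (by simpa using e1) e1 (by rw [conj_pow, e2]; simp) e2
  · exact or_iff_not_imp_left.2 fun h1 => h2 _ _ h1 e1 hx e2

theorem y16_aux (hc : Nat.card Y = 2 ^ 4)
    (h2 : ∀ a b : Y, a ≠ 1 → b ≠ 1 → a ^ 2 = 1 → b ^ 2 = 1 → a = b) (h8 : ∀ y : Y, orderOf y ≠ 8) :
    False := by
  classical
  have := Fintype.ofFinite Y
  obtain ⟨e, e1, e2, e3, e4⟩ := y_inv h2 (by rw [hc]; norm_num)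
  have h4 : ∀ x : Y, x ≠ 1 → x ≠ e → x * x = e := fun x h1 h3 => by
    obtain ⟨k, hk, ek⟩ := (Nat.dvd_prime_pow Nat.prime_two).1 (hc ▸ orderOf_dvd_natCard x)
    have h5 : (x ^ 2) ^ 2 = 1 := by
      rw [← pow_mul, ← orderOf_dvd_iff_pow_eq_one, ek]
      have a3 : k ≠ 3 := fun h => h8 x (by rw [ek, h]; rfl)
      have a4 : k ≠ 4 := fun h => h8 (x ^ 2) (by rw [orderOf_pow, ek, h]; rfl)
      exact pow_dvd_pow 2 (show k ≤ 2 by omega)
    rw [← pow_two]
    exact (e4 _ h5).resolve_left fun h => (e4 x h).elim h1 h3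
  have key : ∀ S : Finset Y, S.card ≤ 8 → ∃ x, x ∉ S := fun S hS => by
    by_contra! h
    have := Finset.card_le_card (fun x _ => h x : Finset.univ ⊆ S)
    rw [Finset.card_univ, ← Nat.card_eq_fintype_card, hc] at this
    omega
  obtain ⟨a, ha⟩ := key {1, e} (Finset.card_le_two.trans (by norm_num))
  simp only [Finset.mem_insert, Finset.mem_singleton, not_or] at ha
  have h5 : ∀ b, b ∉ ({1, e, a⁻¹, a⁻¹ * e} : Finset Y) → b * a = a * b * e := fun b hb => by
    simp only [Finset.mem_insert, Finset.mem_singleton, not_or] at hb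
    have h6 := h4 (a * b) (fun h => hb.2.2.1 (eq_inv_of_mul_eq_one_right h))
      fun h => hb.2.2.2 (by rw [← h, inv_mul_cancel_left])
    have h7 : a * (b * a) * b = a * (a * b * e) * b := by
      calc a * (b * a) * b = e := by rw [← h6]; group
        _ = a * a * (b * b) * e := by rw [h4 a ha.1 ha.2, h4 b hb.1 hb.2.1, e2, one_mul]
        _ = a * (a * (b * (b * e))) := by simp only [mul_assoc]
        _ = _ := by rw [e3 b]; simp only [mul_assoc]
    exact mul_left_cancel (mul_right_cancel h7)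
  obtain ⟨b, hb⟩ := key {1, e, a⁻¹, a⁻¹ * e} (Finset.card_le_four.trans (by norm_num))
  obtain ⟨c, hc⟩ := key ({1, e, a⁻¹, a⁻¹ * e} ∪ ({1, e, a⁻¹, a⁻¹ * e} : Finset Y).image (b⁻¹ * ·))
    ((Finset.card_union_le _ _).trans
      (add_le_add Finset.card_le_four (Finset.card_image_le.trans Finset.card_le_four)))
  rw [Finset.mem_union, not_or] at hc
  have h6 := h5 (b * c) fun h => hc.2 (Finset.mem_image.2 ⟨_, h, inv_mul_cancel_left _ _⟩)
  have h7 : b * c * a = a * (b * c) := by
    calc b * c * a = b * a * c * e := by rw [mul_assoc, h5 c hc.1]; group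
      _ = a * b * (e * c * e) := by rw [h5 b hb]; group
      _ = _ := by rw [← e3 c, mul_assoc c, e2, mul_one, mul_assoc]
  exact e1 (by rwa [h7, left_eq_mul] at h6)

/-- Let `T` be a subgroup of order `16` (`Sylow.exists_subgroup_card_pow_prime`), `e` its involution
(central).  Every `x ∈ T` has `x ^ 4 = 1`, so `x ^ 2 ∈ {1, e}`, and `a b a⁻¹ b⁻¹ ∈ {1, e}`.  For
`a ∉ {1, e}` the class of `a` in `T` lies in `{a, a e}`, so `|C_T(a)| ≥ 8`; but `b ∈ C_T(a)`,
`b ∉ {1, e}` has `(a b) ^ 2 = e e = 1`, so `C_T(a) ⊆ {1, e, a⁻¹, a⁻¹ e}`. -/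
theorem y16 (h2 : ∀ a b : Y, a ≠ 1 → b ≠ 1 → a ^ 2 = 1 → b ^ 2 = 1 → a = b)
    (h8 : ∀ y : Y, orderOf y ≠ 8) : ¬ 16 ∣ Nat.card Y := by
  intro h
  obtain ⟨T, hT⟩ := Sylow.exists_subgroup_card_pow_prime 2 (n := 4) h
  exact y16_aux hT (fun a b ha hb h1 h3 => Subtype.ext (h2 a b (by simpa using ha) (by simpa using hb)
    (congrArg Subtype.val h1) (congrArg Subtype.val h3))) fun y e => h8 y (by rw [orderOf_coe, e])

/-- For `z` of order `3`: `4 ∤ |C(z)|` (a subgroup of order `4` has an element of order `4`, which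
would give an element of order `12`); the involution `e` is central, so `|C(z)| = 6`, the class of
`z` has `4` elements, `zpowers z` is not normal, there are `4` Sylow `3`-subgroups and
`N(zpowers z)` has order `6`, so equals `C(z)`: `z` is not real.  A subgroup `X` of index `2` is
normal and contains `e`, the classes of `z`, `z⁻¹`, `e z`, `e z⁻¹`: more than `12` elements. -/
theorem y24 (hc : Nat.card Y = 24)
    (h2 : ∀ a b : Y, a ≠ 1 → b ≠ 1 → a ^ 2 = 1 → b ^ 2 = 1 → a = b)
    (h12 : ∀ y : Y, orderOf y ≠ 12) :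
    (∀ z : Y, orderOf z = 3 → ¬ IsConj z z⁻¹) ∧ ∀ X : Subgroup Y, X.index ≠ 2 := by
  classical
  have := Fintype.ofFinite Y
  obtain ⟨e, e1, e2, e3, e4⟩ := y_inv h2 (by rw [hc]; norm_num)
  have hC : ∀ z : Y, orderOf z = 3 → Nat.card (centralizer ({z} : Set Y)) = 6 := fun z hz => by
    have a1 : cz z ∣ 24 := hc ▸ cz_dvd z
    have a2 : 3 ∣ cz z := hz ▸ orderOf_dvd_cz z
    have a3 : 2 ∣ cz z := by
      have := orderOf_dvd_natCard (⟨e, mem_centralizer_singleton_iff.2 (e3 z).symm⟩ : centralizer {z})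
      rwa [← orderOf_coe, orderOf_eq_prime (p := 2) (by rw [pow_two]; exact e2) e1] at this
    have a4 : ¬ 4 ∣ cz z := fun h => by
      obtain ⟨T, hT⟩ := Sylow.exists_subgroup_card_pow_prime 2 (n := 2) h
      obtain ⟨x, hx⟩ : ∃ x : T, x.1.1 ∉ ({1, e} : Finset Y) := by
        by_contra! h
        have := Finset.card_le_card_of_injOn (s := Finset.univ) (fun x : T => x.1.1) (fun x _ => h x)
          fun x _ y _ h => Subtype.ext (Subtype.ext h)
        rw [Finset.card_univ, ← Nat.card_eq_fintype_card, hT] at this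
        exact absurd (this.trans Finset.card_le_two) (by norm_num)
      simp only [Finset.mem_insert, Finset.mem_singleton, not_or] at hx
      have b1 : x.1.1 ^ 2 ^ (1 + 1) = 1 := congrArg (fun y : T => y.1.1) (hT ▸ pow_card_eq_one' (x := x))
      have b2 := orderOf_eq_prime_pow (p := 2) (n := 1) (fun h => (e4 _ h).elim hx.1 hx.2) b1
      refine h12 (x.1.1 * z) ?_
      rw [Commute.orderOf_mul_eq_mul_orderOf_of_coprime (mem_centralizer_singleton_iff.1 x.1.2)
        (by rw [b2, hz]; norm_num), b2, hz]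
      rfl
    change cz z = 6
    have := Nat.le_of_dvd (by norm_num) a1
    generalize cz z = n at *
    interval_cases n <;> omega
  have hO : ∀ z : Y, orderOf z = 3 → (Finset.univ.image fun g => g * z * g⁻¹).card = 4 := fun z hz => by
    have a1 := MulAction.index_stabilizer (ConjAct Y) z
    have a2 := (MulAction.stabilizer (ConjAct Y) z).card_mul_index
    rw [← nat_card_centralizer_nat_card_stabilizer, hC z hz, a1, show Nat.card (ConjAct Y) = 24 from hc] at a2
    have a3 : MulAction.orbit (ConjAct Y) z = ↑(Finset.univ.image fun g => g * z * g⁻¹) := by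
      rw [Finset.coe_image, Finset.coe_univ, Set.image_univ]
      rfl
    rw [a3, Set.ncard_coe_finset] at a2
    omega
  have hX : ∀ X : Subgroup Y, X.index ≠ 2 := fun X hX => by
    obtain ⟨z, hz⟩ := exists_prime_orderOf_dvd_card' (G := Y) 3 (by rw [hc]; norm_num)
    have a0 : Nat.card X = 12 := by have := X.card_mul_index; rw [hX, hc] at this; omega
    have a1 : ∀ y : Y, y ^ 3 = 1 → y ^ 2 * y ^ 2 = y := fun y hy => by
      rw [← pow_add, pow_succ, hy, one_mul]
    have a2 : ∀ y : Y, y ^ 3 = 1 → y ∈ X := fun y hy => a1 y hy ▸ mul_self_mem_of_index_two hX _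
    have z3 : z ^ 3 = 1 := hz ▸ pow_orderOf_eq_one z
    have a3 : e ∈ X := by
      obtain ⟨x, hx⟩ := exists_prime_orderOf_dvd_card' (G := X) 2 (by rw [a0]; norm_num)
      refine ((e4 x (congrArg Subtype.val (hx ▸ pow_orderOf_eq_one x))).resolve_left fun h => ?_) ▸ x.2
      rw [show x = 1 from Subtype.ext h] at hx
      simp at hx
    have ce : Commute e z := (e3 z).symm
    have a4 : zpowers (e * z) = centralizer {z} :=
      eq_of_le_of_card_ge (zpowers_le.2 (mem_centralizer_singleton_iff.2 (ce.mul_left (.refl z)))) (by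
        rw [hC z hz, Nat.card_zpowers, ce.orderOf_mul_eq_mul_orderOf_of_coprime, hz,
          orderOf_eq_prime (p := 2) (by rw [pow_two]; exact e2) e1]
        rw [hz, orderOf_eq_prime (p := 2) (by rw [pow_two]; exact e2) e1]
        norm_num)
    have a5 : centralizer {z} ≤ X := a4 ▸ zpowers_le.2 (mul_mem a3 (a2 z z3))
    have a6 : ((centralizer {z}).subgroupOf X).index = 2 := by
      have := ((centralizer {z}).subgroupOf X).card_mul_index
      rw [Nat.card_congr (subgroupOfEquivOfLe a5).toEquiv, hC z hz, a0] at this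
      omega
    have a7 : ∀ y : Y, y ^ 3 = 1 → y ∈ centralizer {z} := fun y hy =>
      a1 y hy ▸ mul_self_mem_of_index_two a6 ⟨y ^ 2, pow_mem (a2 y hy) 2⟩
    set S := Finset.univ.image fun g => g * z * g⁻¹ with hS
    have a8 : ∀ y ∈ S, y ^ 3 = 1 := fun y hy => by
      obtain ⟨g, -, rfl⟩ := Finset.mem_image.1 hy
      rw [conj_pow, z3]; simp
    have a9 : Disjoint S (S.image (e * ·)) := Finset.disjoint_left.2 fun y hy hy' => by
      obtain ⟨x, hx, rfl⟩ := Finset.mem_image.1 hy'
      have := a8 _ hy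
      rw [Commute.mul_pow (e3 x).symm, a8 x hx, mul_one, pow_succ, pow_two, e2, one_mul] at this
      exact e1 this
    have b1 : S ∪ S.image (e * ·) ⊆ (centralizer {z} : Set Y).toFinset := fun y hy => by
      rw [Set.mem_toFinset]
      rcases Finset.mem_union.1 hy with hy | hy
      · exact a7 y (a8 y hy)
      · obtain ⟨x, hx, rfl⟩ := Finset.mem_image.1 hy
        exact mul_mem (mem_centralizer_singleton_iff.2 ce) (a7 x (a8 x hx))
    have b2 := Finset.card_le_card b1
    rw [Finset.card_union_of_disjoint a9, Finset.card_image_of_injective _ (mul_right_injective e), hO z hz,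
      Set.toFinset_card, ← Nat.card_eq_fintype_card] at b2
    exact absurd (b2.trans_eq (hC z hz)) (by norm_num)
  refine ⟨fun z hz h => ?_, hX⟩
  obtain ⟨g, hg⟩ := isConj_iff.1 h
  let X : Subgroup Y :=
    { carrier := {x | x * z * x⁻¹ = z ∨ x * z * x⁻¹ = z⁻¹}
      one_mem' := .inl (by simp)
      mul_mem' := fun {a b} ha hb => by
        have h1 : a * b * z * (a * b)⁻¹ = a * (b * z * b⁻¹) * a⁻¹ := by group
        have h3 : a * z⁻¹ * a⁻¹ = (a * z * a⁻¹)⁻¹ := by group
        change _ ∨ _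
        rw [h1]
        rcases hb with hb | hb <;> rcases ha with ha | ha <;> simp only [hb, h3, ha, inv_inv, true_or, or_true]
      inv_mem' := fun {a} ha => by
        rcases ha with ha | ha
        · exact .inl (by conv_lhs => rw [← ha]
                         group)
        · refine .inr (by conv_lhs => rw [← inv_inv z, ← ha]
                          group) }
  have a1 : centralizer {z} ≤ X := fun x hx =>
    .inl (by rw [mem_centralizer_singleton_iff.1 hx, mul_inv_cancel_right])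
  have a2 : Nat.card X ≠ 6 := fun h6 => by
    have b1 : g ∈ centralizer {z} := (eq_of_le_of_card_ge a1 (by rw [h6, hC z hz])).ge (.inr hg)
    rw [mem_centralizer_singleton_iff.1 b1, mul_inv_cancel_right] at hg
    have := orderOf_dvd_of_pow_eq_one (n := 2) (x := z) (by rw [pow_two]; exact mul_eq_one_iff_eq_inv.2 hg)
    rw [hz] at this
    norm_num at this
  have a3 : X ≠ ⊤ := fun h => by
    have b1 : (Finset.univ.image fun g => g * z * g⁻¹) ⊆ {z, z⁻¹} := fun y hy => by
      obtain ⟨x, -, rfl⟩ := Finset.mem_image.1 hy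
      have : x * z * x⁻¹ = z ∨ x * z * x⁻¹ = z⁻¹ := h.ge (mem_top x)
      simpa using this
    exact absurd (((hO z hz).ge.trans (Finset.card_le_card b1)).trans Finset.card_le_two) (by norm_num)
  obtain ⟨k, hk⟩ := hC z hz ▸ card_dvd_of_le a1
  have a4 := X.card_mul_index
  have a5 := hX X
  have a6 : X.index ≠ 1 := fun h => a3 (index_eq_one.1 h)
  rw [hc, hk] at a4
  have a7 : k * X.index = 4 := by linarith
  have a8 : k ≠ 1 := fun h => a2 (by rw [hk, h])
  have := Nat.le_of_dvd (by norm_num) (Dvd.intro_left k a7)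
  generalize X.index = n at *
  interval_cases n <;> omega

/-- If all powers of `y` with exponent prime to `N` are `y` or `y⁻¹`, then every even divisor `n`
of the order of `y` is at most `6`: otherwise `m = n / 2 + 1` (if `4 ∣ n`) or `m = n / 2 + 2` is
prime to `n` and not `±1 mod n`; lift it with `exists_lift`. -/
theorem even_dvd_le {y : Y} {N n : ℕ} (hN : N ≠ 0) (hy : orderOf y ∣ N)
    (h : ∀ m : ℕ, m.Coprime N → y ^ m = y ∨ y ^ m = y⁻¹) (hn : n ∣ orderOf y) (he : Even n) :
    n ≤ 6 := by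
  by_contra! h6
  obtain ⟨m, hm, h1, h2⟩ : ∃ m : ℕ, m.Coprime n ∧ 2 ≤ m ∧ m + 1 < n := by
    obtain ⟨k, rfl⟩ := he
    rcases Nat.even_or_odd' k with ⟨j, rfl | rfl⟩
    · refine ⟨2 * j + 1, ?_, by omega, by omega⟩
      rw [← two_mul]
      exact Nat.Coprime.mul_right (by simp) (by simp)
    · refine ⟨2 + (2 * j + 1), ?_, by omega, by omega⟩
      rw [← two_mul]
      refine Nat.Coprime.mul_right ?_ ?_
      · rw [Nat.coprime_self_add_left]; simp
      · rw [Nat.coprime_add_self_left]; simp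
  obtain ⟨m', h3, h4⟩ := exists_lift hN (hn.trans hy) hm
  rcases h m' h3 with e | e
  · have h5 : m' ≡ 1 [MOD n] := (pow_eq_pow_iff_modEq.1 (e.trans (pow_one y).symm)).of_dvd hn
    have := (h4.symm.trans h5).eq_of_lt_of_lt (by omega) (by omega)
    omega
  · have h5 : n ∣ m' + 1 := hn.trans (orderOf_dvd_of_pow_eq_one (by rw [pow_succ, e, inv_mul_cancel]))
    have := Nat.le_of_dvd (by omega) (((h4.add_right 1).dvd_iff dvd_rfl).1 h5)
    omega

end Cfsg.Lib.AH
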